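import Mathlib

/-!
The product action of `S_m ≀ S_k` on `Fin k → Fin m`.
-/

set_option autoImplicit false

namespace Cfsg.Agent.ProdAction

open Equiv Equiv.Perm

variable {m k : ℕ}

/-- The points. -/
abbrev Pt (m k : ℕ) : Type := Fin k → Fin m

/-- The product action of `(π, τ)`. -/
def act (π : Perm (Fin k)) (τ : Fin k → Perm (Fin m)) : Perm (Pt m k) where
  toFun f i := τ i (f (π.symm i))
  invFun f i := (τ (π i)).symm (f (π i))
  left_inv f := by funext i; simp
  right_inv f := by funext i; simp

@[simp] theorem act_apply (π : Perm (Fin k)) (τ : Fin k → Perm (Fin m)) (f : Pt m k) (i : Fin k) :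
    act π τ f i = τ i (f (π.symm i)) := rfl

theorem act_mul (π π' : Perm (Fin k)) (τ τ' : Fin k → Perm (Fin m)) :
    act π τ * act π' τ' = act (π * π') (fun i => τ i * τ' (π.symm i)) := by
  ext f i; simp [Perm.mul_def]

theorem act_one : act (1 : Perm (Fin k)) (1 : Fin k → Perm (Fin m)) = 1 := by
  ext f i; simp [Perm.one_def]

theorem act_inv (π : Perm (Fin k)) (τ : Fin k → Perm (Fin m)) :
    (act π τ)⁻¹ = act π⁻¹ (fun i => (τ (π i))⁻¹) := by
  refine inv_eq_of_mul_eq_one_right ?_
  rw [act_mul, ← act_one]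
  congr 1
  · simp
  · funext i; simp

theorem act_eq_one_iff (hm : 2 ≤ m) {π : Perm (Fin k)} {τ : Fin k → Perm (Fin m)} :
    act π τ = 1 ↔ π = 1 ∧ τ = 1 := by
  constructor
  · intro h
    have hf : ∀ (f : Pt m k) i, τ i (f (π.symm i)) = f i := fun f i =>
      congrFun (Equiv.ext_iff.1 h f) i
    have hπ : ∀ i, π.symm i = i := by
      intro i
      by_contra hne
      let z : Fin m := ⟨0, by omega⟩
      have h0 := hf (fun _ => z) i
      have h1 := hf (Function.update (fun _ => z) i ⟨1, by omega⟩) i
      simp [Function.update_of_ne hne, h0, z, Fin.ext_iff] at h1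
    refine ⟨Equiv.ext fun i => by simpa using (congrArg π (hπ i)).symm, funext fun i => ?_⟩
    ext x
    have := hf (fun _ => x) i
    simp [this]
  · rintro ⟨rfl, rfl⟩
    exact act_one

/-- `S_m ≀ S_k` in product action. -/
def W (m k : ℕ) : Subgroup (Perm (Pt m k)) where
  carrier := {σ | ∃ (π : Perm (Fin k)) (τ : Fin k → Perm (Fin m)),
    ∀ (f : Pt m k) (i : Fin k), σ f i = τ i (f (π.symm i))}
  mul_mem' := by
    rintro a b ⟨π, τ, h⟩ ⟨π', τ', h'⟩
    exact ⟨π * π', fun i => τ i * τ' (π.symm i), fun f i => by simp [h, h', Perm.mul_def]⟩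
  one_mem' := ⟨1, 1, fun f i => by simp [Perm.one_def]⟩
  inv_mem' := by
    rintro a ⟨π, τ, h⟩
    obtain rfl : a = act π τ := Equiv.ext fun f => funext fun i => h f i
    rw [act_inv]
    exact ⟨_, _, fun f i => act_apply _ _ f i⟩

theorem mem_W_iff {σ : Perm (Pt m k)} :
    σ ∈ W m k ↔ ∃ π τ, σ = act π τ := by
  constructor
  · rintro ⟨π, τ, h⟩; exact ⟨π, τ, Equiv.ext fun f => funext fun i => h f i⟩
  · rintro ⟨π, τ, rfl⟩; exact ⟨π, τ, act_apply π τ⟩

theorem act_mem_W (π : Perm (Fin k)) (τ : Fin k → Perm (Fin m)) : act π τ ∈ W m k :=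
  mem_W_iff.2 ⟨π, τ, rfl⟩

/-- The part of `W` every overgroup under consideration contains. -/
def Wev (m k : ℕ) : Subgroup (Perm (Pt m k)) :=
  if Even m then W m k else W m k ⊓ alternatingGroup (Pt m k)

theorem Wev_le_W : Wev m k ≤ W m k := by
  unfold Wev; split
  · exact le_rfl
  · exact inf_le_left

theorem mem_Wev {σ : Perm (Pt m k)} :
    σ ∈ Wev m k ↔ σ ∈ W m k ∧ (Even m ∨ sign σ = 1) := by
  unfold Wev
  split <;> rename_i h <;> simp [h, Perm.mem_alternatingGroup]

/-- The maximality statement for one `(m, k)`. -/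
def Key (m k : ℕ) : Prop :=
  ∀ G : Subgroup (Perm (Pt m k)), Wev m k ≤ G → G ≤ W m k ∨ alternatingGroup (Pt m k) ≤ G

/-- A permutation of the values applied in coordinate `j`. -/
def coord (j : Fin k) : Perm (Fin m) →* Perm (Pt m k) where
  toFun t := act 1 (Pi.mulSingle j t)
  map_one' := by rw [Pi.mulSingle_one, act_one]
  map_mul' s t := by
    rw [act_mul, one_mul]
    congr 1
    funext i
    rw [Pi.mulSingle_mul]
    rfl

theorem coord_apply (j : Fin k) (t : Perm (Fin m)) (f : Pt m k) :
    coord j t f = Function.update f j (t (f j)) := by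
  funext i
  show Pi.mulSingle (M := fun _ => Perm (Fin m)) j t i (f i) = _
  rcases eq_or_ne i j with rfl | h
  · simp
  · simp [Pi.mulSingle_eq_of_ne h, Function.update_of_ne h]

theorem coord_mem_W (j : Fin k) (t : Perm (Fin m)) : coord j t ∈ W m k := act_mem_W _ _

theorem act_conj_coord (π : Perm (Fin k)) (τ : Fin k → Perm (Fin m)) (j : Fin k)
    (t : Perm (Fin m)) :
    act π τ * coord j t * (act π τ)⁻¹ = coord (π j) (τ (π j) * t * (τ (π j))⁻¹) := by
  rw [mul_inv_eq_iff_eq_mul]
  ext f i
  simp only [Perm.mul_apply, coord_apply, act_apply]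
  rcases eq_or_ne i (π j) with rfl | h
  · simp
  · have : π.symm i ≠ j := fun e => h (by simp [← e])
    simp [Function.update_of_ne h, Function.update_of_ne this]

theorem coord_comm {i j : Fin k} (h : i ≠ j) (s t : Perm (Fin m)) :
    Commute (coord i s) (coord j t) := by
  refine Equiv.ext fun f => ?_
  simp only [Perm.mul_apply, coord_apply]
  rw [Function.update_comm h]
  simp [Function.update_of_ne h, Function.update_of_ne h.symm]

/-- The fixed points of a coordinate permutation. -/
theorem coord_fixed (j : Fin k) (t : Perm (Fin m)) (f : Pt m k) :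
    coord j t f = f ↔ t (f j) = f j := by
  rw [coord_apply]
  exact ⟨fun h => by simpa using congrFun h j, fun h => by rw [h, Function.update_eq_self]⟩

theorem sign_act_one (τ : Fin k → Perm (Fin m)) :
    sign (act 1 τ) = ∏ i, sign (coord i (τ i)) := by
  classical
  suffices h : ∀ s : Finset (Fin k),
      sign (act 1 (fun i => if i ∈ s then τ i else 1)) = ∏ i ∈ s, sign (coord i (τ i)) by
    simpa using h Finset.univ
  intro s
  induction s using Finset.induction with
  | empty => simp [show (fun _ : Fin k => (1 : Perm (Fin m))) = 1 from rfl, act_one]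
  | insert a s ha ih =>
    rw [Finset.prod_insert ha, ← ih, ← map_mul]
    congr 1
    refine Equiv.ext fun f => funext fun i => ?_
    simp only [Perm.mul_apply, coord_apply, act_apply]
    rcases eq_or_ne i a with rfl | h
    · simp [ha, Perm.one_def]
    · simp [h, Function.update_of_ne h, Perm.one_def]

theorem sign_coord (j : Fin k) (t : Perm (Fin m)) :
    sign (coord j t) = sign t ^ (m ^ (k - 1)) := by
  classical
  let e : Pt m k ≃ Fin m × ({i // i ≠ j} → Fin m) := Equiv.funSplitAt j (Fin m)
  rw [Equiv.Perm.sign_eq_sign_of_equiv (coord j t) (Equiv.prodCongrLeft fun _ => t) e, sign_prodCongrLeft,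
    Finset.prod_const, Finset.card_univ, Fintype.card_fun, Fintype.card_subtype_compl]
  · simp
  · intro f
    simp [e, coord_apply, Equiv.funSplitAt, Equiv.piSplitAt]
    funext i
    simp [Function.update_of_ne i.2]

theorem sign_coord_of_odd (hm : Odd m) (j : Fin k) (t : Perm (Fin m)) :
    sign (coord j t) = sign t := by
  rw [sign_coord, Int.units_pow_eq_pow_mod_two, Nat.odd_iff.1 (hm.pow), pow_one]

theorem coord_mem_Wev_of_sign (j : Fin k) {t : Perm (Fin m)} (ht : sign t = 1) :
    coord j t ∈ Wev m k :=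
  mem_Wev.2 ⟨coord_mem_W j t, .inr (by rw [sign_coord, ht, one_pow])⟩

/-- The slab where coordinate `j` has value `a`. -/
def slab (j : Fin k) (a : Fin m) : Set (Pt m k) := {f | f j = a}

end Cfsg.Agent.ProdAction
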