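import Cfsg.Agent.ProdAction.Param

/-!
The data for `m ∈ {5, 6, 7, 9}` and the elements of the product action stabiliser
conjugate to `coord 0 v`.
-/

set_option autoImplicit false

namespace Cfsg.Agent.ProdAction

open Equiv Equiv.Perm Finset

section Data

variable {m e : ℕ} {a : Fin m} {v v' : Perm (Fin m)}

theorem fix_pow_of_bounded (he : 0 < e) (hv : v ^ e = 1)
    (h : ∀ i < e, v ^ i ≠ 1 → ∀ x, (v ^ i) x = x ↔ x = a) :
    ∀ i : ℕ, v ^ i ≠ 1 → ∀ x, (v ^ i) x = x ↔ x = a := by
  intro i hi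
  rw [pow_eq_pow_mod i hv] at hi ⊢
  exact h _ (Nat.mod_lt _ he) hi

theorem sep_of_bounded
    (h : ∀ x y, x ≠ a → y ≠ a → (∀ i < e, ∀ j < e, (v ^ i * v' ^ j) x ≠ y) →
      ∃ i < e, ∃ j < e, (v ^ i * v' ^ j) x = x ∧ (v ^ i * v' ^ j) y ≠ y) :
    ∀ x y, x ≠ a → y ≠ a → (∀ i j : ℕ, i < e → j < e → (v ^ i * v' ^ j) x ≠ y) →
      ∃ i j : ℕ, (v ^ i * v' ^ j) x = x ∧ (v ^ i * v' ^ j) y ≠ y := by
  intro x y hx hy hne
  obtain ⟨i, -, j, -, hij⟩ := h x y hx hy fun i hi j hj => hne i j hi hj
  exact ⟨i, j, hij⟩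

theorem rigid_of_bounded (L : List (Perm (Fin m))) (he : 0 < e) (hv : v ^ e = 1) (hv' : v' ^ e = 1)
    (h : ∀ x y, x ≠ a → x ≠ y → (∃ i < e, ∃ j < e, (v ^ i * v' ^ j) x = y) →
      ∃ u ∈ L, sign u = 1 ∧ u a = a ∧ u x = x ∧ u y ≠ y ∧
        ∀ q, ∃ i < e, ∃ j < e, (v ^ i * v' ^ j) q = u q) :
    ∀ x y, x ≠ a → x ≠ y → (∃ i j : ℕ, (v ^ i * v' ^ j) x = y) →
      ∃ u : Perm (Fin m), sign u = 1 ∧ u a = a ∧ u x = x ∧ u y ≠ y ∧
        ∀ q, ∃ i j : ℕ, (v ^ i * v' ^ j) q = u q := by
  rintro x y hx hxy ⟨i, j, hij⟩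
  rw [pow_eq_pow_mod i hv, pow_eq_pow_mod j hv'] at hij
  obtain ⟨u, -, h1, h2, h3, h4, h5⟩ :=
    h x y hx hxy ⟨_, Nat.mod_lt _ he, _, Nat.mod_lt _ he, hij⟩
  refine ⟨u, h1, h2, h3, h4, fun q => ?_⟩
  obtain ⟨i, -, j, -, hij⟩ := h5 q
  exact ⟨i, j, hij⟩

end Data

/-- The data for `m = 5`. -/
def param5 : Param 5 where
  p := 2
  hp := Nat.prime_two
  e := 2
  hpe := ⟨1, rfl⟩
  a := 4
  b := 0
  hba := by decide
  v := [0, 1].formPerm * [2, 3].formPerm
  v' := [0, 2].formPerm * [1, 3].formPerm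
  orderOf_v := (orderOf_eq_iff (by norm_num)).2 ⟨by decide +kernel, by decide +kernel⟩
  fix_pow := fix_pow_of_bounded (e := 2) (by norm_num) (by decide +kernel) (by decide +kernel)
  conj' := isConj_iff.2 ⟨[1, 2].formPerm, by decide +kernel⟩
  fix' := by decide +kernel
  comm := by show _ * _ = _ * _; decide +kernel
  sign_v := by decide +kernel
  odd_cent := fun _ => ⟨[0, 1].formPerm, by decide +kernel, by decide +kernel,
    by show _ * _ = _ * _; decide +kernel⟩
  count := by decide
  even_p := by decide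
  sep := sep_of_bounded (e := 2) (by decide +kernel)
  rigid := rigid_of_bounded (e := 2)
    [[1, 2, 3].formPerm, [0, 2, 3].formPerm, [0, 1, 3].formPerm, [0, 1, 2].formPerm]
    (by norm_num) (by decide +kernel) (by decide +kernel) (by decide +kernel)

/-- The data for `m = 6`. -/
def param6 : Param 6 where
  p := 5
  hp := by norm_num
  e := 5
  hpe := ⟨1, rfl⟩
  a := 5
  b := 0
  hba := by decide
  v := [0, 1, 2, 3, 4].formPerm
  v' := [0, 1, 2, 3, 4].formPerm
  orderOf_v := (orderOf_eq_iff (by norm_num)).2 ⟨by decide +kernel, by decide +kernel⟩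
  fix_pow := fix_pow_of_bounded (e := 5) (by norm_num) (by decide +kernel) (by decide +kernel)
  conj' := IsConj.refl _
  fix' := by decide +kernel
  comm := Commute.refl _
  sign_v := by decide +kernel
  odd_cent := fun h => absurd h (by decide)
  count := by decide
  even_p := by decide
  sep := sep_of_bounded (e := 5) (by decide +kernel)
  rigid := rigid_of_bounded (e := 5)
    [[1, 2].formPerm * [3, 4].formPerm, [0, 2].formPerm * [3, 4].formPerm,
     [0, 1].formPerm * [3, 4].formPerm, [0, 1].formPerm * [2, 4].formPerm,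
     [0, 1].formPerm * [2, 3].formPerm]
    (by norm_num) (by decide +kernel) (by decide +kernel) (by decide +kernel)

/-- The data for `m = 7`. -/
def param7 : Param 7 where
  p := 3
  hp := Nat.prime_three
  e := 3
  hpe := ⟨1, rfl⟩
  a := 6
  b := 0
  hba := by decide
  v := [0, 1, 2].formPerm * [3, 4, 5].formPerm
  v' := [0, 1, 2].formPerm * [3, 5, 4].formPerm
  orderOf_v := (orderOf_eq_iff (by norm_num)).2 ⟨by decide +kernel, by decide +kernel⟩
  fix_pow := fix_pow_of_bounded (e := 3) (by norm_num) (by decide +kernel) (by decide +kernel)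
  conj' := isConj_iff.2 ⟨[4, 5].formPerm, by decide +kernel⟩
  fix' := by decide +kernel
  comm := by show _ * _ = _ * _; decide +kernel
  sign_v := by decide +kernel
  odd_cent := fun _ => ⟨[0, 3].formPerm * [1, 4].formPerm * [2, 5].formPerm, by decide +kernel,
    by decide +kernel, by show _ * _ = _ * _; decide +kernel⟩
  count := by decide
  even_p := by decide
  sep := sep_of_bounded (e := 3) (by decide +kernel)
  rigid := rigid_of_bounded (e := 3)
    [[1, 2].formPerm * [3, 4].formPerm, [0, 2].formPerm * [3, 4].formPerm,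
     [0, 1].formPerm * [3, 4].formPerm, [0, 1].formPerm * [4, 5].formPerm,
     [0, 1].formPerm * [3, 5].formPerm]
    (by norm_num) (by decide +kernel) (by decide +kernel) (by decide +kernel)

/-- The data for `m = 9`. -/
def param9 : Param 9 where
  p := 2
  hp := Nat.prime_two
  e := 4
  hpe := ⟨2, rfl⟩
  a := 8
  b := 0
  hba := by decide
  v := [0, 1, 2, 3].formPerm * [4, 5, 6, 7].formPerm
  v' := [0, 1, 2, 3].formPerm * [4, 7, 6, 5].formPerm
  orderOf_v := (orderOf_eq_iff (by norm_num)).2 ⟨by decide +kernel, by decide +kernel⟩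
  fix_pow := fix_pow_of_bounded (e := 4) (by norm_num) (by decide +kernel) (by decide +kernel)
  conj' := isConj_iff.2 ⟨[5, 7].formPerm, by decide +kernel⟩
  fix' := by decide +kernel
  comm := by show _ * _ = _ * _; decide +kernel
  sign_v := by decide +kernel
  odd_cent := fun _ => ⟨[0, 1, 2, 3].formPerm, by decide +kernel, by decide +kernel,
    by show _ * _ = _ * _; decide +kernel⟩
  count := by decide
  even_p := by decide
  sep := sep_of_bounded (e := 4) (by decide +kernel)
  rigid := rigid_of_bounded (e := 4)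
    [[1, 2, 3].formPerm, [0, 2, 3].formPerm, [0, 1, 3].formPerm, [0, 1, 2].formPerm,
     [5, 6, 7].formPerm, [4, 6, 7].formPerm, [4, 5, 7].formPerm, [4, 5, 6].formPerm]
    (by norm_num) (by decide +kernel) (by decide +kernel) (by decide +kernel)

section Cycles

variable {m : ℕ}

/-- A permutation all whose nontrivial powers fix `a` only has all cycles of full length. -/
theorem cycleType_eq_replicate_of_pow {t : Perm (Fin m)} (a : Fin m) (ht : t ≠ 1)
    (hf : ∀ i : ℕ, t ^ i ≠ 1 → ∀ x, (t ^ i) x = x ↔ x = a) :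
    ∃ q, t.cycleType = Multiset.replicate q (orderOf t) ∧ q * orderOf t = m - 1 := by
  have h1 : ∀ x, t x = x ↔ x = a := by
    simpa using hf 1 (by simpa using ht)
  have hall : ∀ k ∈ t.cycleType, k = orderOf t := by
    intro k hk
    rw [cycleType_def, Multiset.mem_map] at hk
    obtain ⟨c, hc, rfl⟩ := hk
    have hcf := mem_cycleFactorsFinset_iff.1 (show c ∈ t.cycleFactorsFinset from hc)
    by_contra hne
    have hk' : t ^ c.support.card ≠ 1 := by
      intro h
      apply hne
      refine Nat.dvd_antisymm ?_ (orderOf_dvd_of_pow_eq_one h)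
      refine dvd_of_mem_cycleType ?_ |>.trans (dvd_refl _)
      rw [cycleType_def, Multiset.mem_map]
      exact ⟨c, hc, rfl⟩
    obtain ⟨x, hx⟩ := hcf.1.nonempty_support
    have hcx : c = t.cycleOf x := cycle_is_cycleOf hx hc
    have hfix : (t ^ c.support.card) x = x := by
      rw [← cycleOf_pow_apply_self t x, ← hcx, ← hcf.1.orderOf, pow_orderOf_eq_one, Perm.one_apply]
    have hxa : x = a := (hf _ hk' x).1 hfix
    exact (mem_support.1 hx) (by rw [hcf.2 x hx]; exact (h1 x).2 hxa)
  refine ⟨t.cycleType.card, (Multiset.eq_replicate.2 ⟨rfl, hall⟩), ?_⟩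
  have hs := sum_cycleType t
  rw [Multiset.eq_replicate.2 ⟨rfl, hall⟩, Multiset.sum_replicate, smul_eq_mul] at hs
  rw [hs]
  have : t.support = (univ : Finset (Fin m)).erase a := by
    ext x; simp [mem_support, h1 x]
  rw [this, card_erase_of_mem (mem_univ a), card_univ, Fintype.card_fin]

theorem isConj_v_of_pow (P : Param m) {t : Perm (Fin m)} (ho : orderOf t = P.e)
    (hf : ∀ i : ℕ, t ^ i ≠ 1 → ∀ x, (t ^ i) x = x ↔ x = P.a) : IsConj t P.v := by
  by_cases ht : t = 1
  · have : P.v = 1 := orderOf_eq_one_iff.1 (by rw [P.orderOf_v, ← ho, ht, orderOf_one])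
    rw [ht, this]
  · have hv : P.v ≠ 1 := fun h => ht (orderOf_eq_one_iff.1 (by
      rw [ho, ← P.orderOf_v, h, orderOf_one]))
    obtain ⟨q, hq, hqm⟩ := cycleType_eq_replicate_of_pow P.a ht hf
    obtain ⟨r, hr, hrm⟩ := cycleType_eq_replicate_of_pow P.a hv P.fix_pow
    rw [ho] at hq hqm
    rw [P.orderOf_v] at hr hrm
    have he : 0 < P.e := ho ▸ orderOf_pos t
    rw [isConj_iff_cycleType_eq, hq, hr, Nat.eq_of_mul_eq_mul_right he (hqm.trans hrm.symm)]

/-- The orders occurring in the data. -/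
theorem Param.e_cases (P : Param m) (hP : m = 5 ∨ m = 6 ∨ m = 7 ∨ m = 9) :
    (m = 5 ∧ P.e = 2) ∨ (m = 6 ∧ P.e = 5) ∨ (m = 7 ∧ P.e = 3) ∨ (m = 9 ∧ P.e = 4) := by
  have hodd : P.e = m - 1 → Odd P.e := by
    intro h
    have hv : P.v ≠ 1 := fun hv => by
      have := P.orderOf_v
      rw [hv, orderOf_one] at this
      omega
    obtain ⟨q, hq, hqm⟩ := cycleType_eq_replicate_of_pow P.a hv P.fix_pow
    rw [P.orderOf_v, h] at hqm hq
    have hq1 : q = 1 := Nat.eq_of_mul_eq_mul_right (by omega) (hqm.trans (one_mul _).symm)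
    have hs := P.sign_v
    rw [sign_of_cycleType, hq, hq1] at hs
    simp only [Multiset.replicate_one, Multiset.sum_singleton, Multiset.card_singleton] at hs
    rw [h]
    rcases Nat.even_or_odd (m - 1) with he | he
    · rw [Odd.neg_one_pow (Even.add_one he)] at hs
      exact absurd hs (by decide)
    · exact he
  have h2 : P.e = m - 1 → P.e % 2 = 1 := fun h => Nat.odd_iff.1 (hodd h)
  rcases P.count with ⟨h, -⟩ | ⟨h, h3⟩
  · omega
  · have := h2 h
    rcases hP with rfl | rfl | rfl | rfl <;> omega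

end Cycles

section Counting

/-- The number of fixed points. -/
noncomputable def fixCard {α : Type*} (t : Perm α) : ℕ := Nat.card {x // t x = x}

theorem fixCard_conj {α : Type*} {c s t : Perm α} (h : c * s * c⁻¹ = t) :
    fixCard s = fixCard t := by
  subst h
  refine Nat.card_congr (Equiv.subtypeEquiv c fun x => ?_)
  simp [Perm.mul_apply]

variable {α : Type*} [Fintype α] [DecidableEq α]

theorem fixCard_eq (t : Perm α) : fixCard t = t.supportᶜ.card := by
  rw [fixCard, Nat.card_eq_fintype_card, Fintype.card_subtype]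
  congr 1
  ext x
  simp

theorem fixCard_one : fixCard (1 : Perm α) = Fintype.card α := by
  simp [fixCard_eq]

theorem fixCard_le_of_ne_one {t : Perm α} (h : t ≠ 1) : fixCard t ≤ Fintype.card α - 2 := by
  have := one_lt_card_support_of_ne_one h
  rw [fixCard_eq, card_compl]
  omega

theorem fixCard_eq_card_iff (t : Perm α) : fixCard t = Fintype.card α ↔ t = 1 := by
  refine ⟨fun h => ?_, fun h => h ▸ fixCard_one⟩
  by_contra hne
  have := fixCard_le_of_ne_one hne
  have := one_lt_card_support_of_ne_one hne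
  have := Finset.card_le_univ t.support
  omega

omit [DecidableEq α] in
theorem one_le_fixCard {t : Perm α} {a : α} (h : t a = a) : 1 ≤ fixCard t :=
  have : Nonempty {x // t x = x} := ⟨⟨a, h⟩⟩
  Nat.card_pos

omit [Fintype α] [DecidableEq α] in
theorem eq_of_fixCard_eq_one {t : Perm α} {a x : α} (ha : t a = a) (h : fixCard t = 1)
    (hx : t x = x) : x = a := by
  have := (Nat.card_eq_one_iff_unique.1 h).1
  exact congrArg Subtype.val (Subsingleton.elim (⟨x, hx⟩ : {x // t x = x}) ⟨a, ha⟩)

/-- A product `m ^ n` of `n + 1` numbers which are `m` or prime to `m`. -/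
theorem exists_sole_of_coprime {m n : ℕ} (hm : 2 ≤ m) (f : Fin (n + 1) → ℕ)
    (h : ∏ i, f i = m ^ n) (hc : ∀ i, f i ≠ m → (f i).Coprime m) :
    ∃ j, f j = 1 ∧ ∀ i, i ≠ j → f i = m := by
  set R := univ.filter fun i => f i ≠ m
  have hsplit := Finset.prod_mul_prod_compl R f
  have hR : ∏ i ∈ Rᶜ, f i = m ^ Rᶜ.card := by
    rw [← Finset.prod_const]
    exact Finset.prod_congr rfl fun i hi => by simpa [R] using hi
  have hcard := Finset.card_add_card_compl R
  rw [Fintype.card_fin] at hcard
  rw [hR, h] at hsplit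
  have hR0 : R.card ≠ 0 := by
    intro h0
    rw [Finset.card_eq_zero.1 h0, Finset.prod_empty, one_mul] at hsplit
    rw [h0, Nat.zero_add] at hcard
    have : (∅ : Finset (Fin (n + 1)))ᶜ.card = n := (Nat.pow_right_injective hm hsplit)
    simp at this
  have hprod : ∏ i ∈ R, f i = m ^ (R.card - 1) := by
    refine Nat.eq_of_mul_eq_mul_right (Nat.pow_pos (n := Rᶜ.card) (show 0 < m by omega)) ?_
    rw [hsplit, ← pow_add]
    congr 1
    omega
  have hcop : (m ^ (R.card - 1)).Coprime m := by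
    rw [← hprod]
    exact Nat.Coprime.prod_left fun i hi => hc i (by simpa [R] using hi)
  have hR1 : R.card = 1 := by
    by_contra hne
    rw [Nat.coprime_pow_left_iff (by omega), Nat.coprime_self] at hcop
    omega
  obtain ⟨j, hj⟩ := Finset.card_eq_one.1 hR1
  refine ⟨j, by simpa [hj, hR1] using hprod, fun i hi => ?_⟩
  have : i ∉ R := by simp [hj, hi]
  simpa [R] using this

/-- One factor `1` leaves room for factors `m` only. -/
theorem eq_of_factor_one {m n : ℕ} (hm : 2 ≤ m) (f : Fin (n + 1) → ℕ) (h : ∏ i, f i = m ^ n)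
    (hle : ∀ i, f i ≤ m) {j : Fin (n + 1)} (hj : f j = 1) : ∀ i, i ≠ j → f i = m := by
  intro i hi
  by_contra hne
  rw [Fintype.prod_eq_mul_prod_compl j, hj, one_mul] at h
  have h2 : ∏ l ∈ ({j}ᶜ : Finset (Fin (n + 1))), f l < ∏ _l ∈ ({j}ᶜ : Finset (Fin (n + 1))), m := by
    by_cases hz : ∀ l ∈ ({j}ᶜ : Finset (Fin (n + 1))), 0 < f l
    · exact Finset.prod_lt_prod hz (fun l _ => hle l)
        ⟨i, by simpa using hi, lt_of_le_of_ne (hle i) hne⟩
    · push Not at hz
      obtain ⟨l, hl, hl0⟩ := hz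
      rw [Finset.prod_eq_zero hl (by omega), Finset.prod_const]
      exact Nat.pow_pos (by omega)
  rw [h, Finset.prod_const, card_compl, Finset.card_singleton, Fintype.card_fin] at h2
  simp at h2

variable {m k : ℕ}

theorem fixCard_act_one (τ : Fin k → Perm (Fin m)) :
    fixCard (act 1 τ) = ∏ i, fixCard (τ i) := by
  simp only [fixCard]
  rw [← Nat.card_pi]
  refine Nat.card_congr ((Equiv.subtypeEquivRight fun f => ?_).trans
    (Equiv.subtypePiEquivPi (p := fun i x => τ i x = x)))
  simp [funext_iff, Perm.one_def]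

theorem fixCard_coord {n : ℕ} (j : Fin (n + 1)) (t : Perm (Fin m)) :
    fixCard (coord j t) = fixCard t * m ^ n := by
  rw [show coord j t = act 1 (Pi.mulSingle j t) from rfl, fixCard_act_one,
    Fintype.prod_eq_mul_prod_compl j, Pi.mulSingle_eq_same,
    Finset.prod_congr rfl fun i hi => by
      rw [Pi.mulSingle_eq_of_ne (by simpa using hi), fixCard_one, Fintype.card_fin],
    Finset.prod_const, card_compl, Finset.card_singleton, Fintype.card_fin, Nat.add_sub_cancel]

theorem act_one_pow (τ : Fin k → Perm (Fin m)) (i : ℕ) : act 1 τ ^ i = act 1 (τ ^ i) := by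
  induction i with
  | zero => rw [pow_zero, pow_zero, act_one]
  | succ i ih =>
    rw [pow_succ, ih, act_mul, one_mul, pow_succ]
    rfl

theorem coord_eq_one_iff (hm : 2 ≤ m) (j : Fin k) (t : Perm (Fin m)) :
    coord j t = 1 ↔ t = 1 := by
  rw [show coord j t = act 1 (Pi.mulSingle j t) from rfl, act_eq_one_iff hm]
  simp [Pi.mulSingle_eq_one_iff]

/-- Fixed points whose values on `D` are forced by the other values. -/
theorem fixCard_le_pow (x : Perm (Pt m k)) (D : Finset (Fin k))
    (hD : ∀ f g, x f = f → x g = g → (∀ l, l ∉ D → f l = g l) → f = g) :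
    fixCard x ≤ m ^ (k - D.card) := by
  have h : Function.Injective
      (fun (f : {f // x f = f}) (l : {l // l ∉ D}) => f.1 l.1) := fun f g h =>
    Subtype.ext (hD _ _ f.2 g.2 fun l hl => congrFun h ⟨l, hl⟩)
  have := Nat.card_le_card_of_injective _ h
  rw [Nat.card_fun, Nat.card_eq_fintype_card (α := Fin m), Fintype.card_fin,
    Nat.card_eq_fintype_card (α := {l // l ∉ D}), Fintype.card_subtype_compl, Fintype.card_fin,
    Fintype.card_coe] at this
  exact this

/-- If two coordinates are forced there are too few fixed points. -/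
theorem eq_swap_of_fixCard {n : ℕ} (hm : 2 ≤ m) {π : Perm (Fin (n + 1))}
    {τ : Fin (n + 1) → Perm (Fin m)} (hn : π ≠ 1) (h : fixCard (act π τ) = m ^ n) :
    ∃ i j, i ≠ j ∧ π = Equiv.swap i j ∧ τ i * τ j = 1 ∧ ∀ l, l ≠ i → l ≠ j → τ l = 1 := by
  obtain ⟨i, hi⟩ : ∃ i, π i ≠ i := by
    by_contra hc
    push Not at hc
    exact hn (Equiv.ext hc)
  set x := act π τ with hx
  have hstep : ∀ f : Pt m (n + 1), x f = f → ∀ l, f (π l) = τ (π l) (f l) := by
    intro f hf l
    conv_lhs => rw [← hf]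
    simp [hx]
  have h2 : ∀ D : Finset (Fin (n + 1)), 2 ≤ D.card →
      (∀ f g, x f = f → x g = g → (∀ l, l ∉ D → f l = g l) → f = g) → False := by
    intro D hc hD
    have hle := fixCard_le_pow x D hD
    rw [h, Nat.pow_le_pow_iff_right (by omega)] at hle
    have := Finset.card_le_univ D
    rw [Fintype.card_fin] at this
    omega
  have hinv : π (π i) = i := by
    by_contra hne
    refine h2 {π i, π (π i)} ?_ ?_
    · rw [Finset.card_pair]
      exact fun he => hi (π.injective he.symm)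
    · intro f g hf hg hfg
      have e0 : f i = g i := hfg i (by simp [Ne.symm hi, Ne.symm hne])
      have e1 : f (π i) = g (π i) := by rw [hstep f hf, hstep g hg, e0]
      funext l
      by_cases hl : l ∈ ({π i, π (π i)} : Finset (Fin (n + 1)))
      · rw [Finset.mem_insert, Finset.mem_singleton] at hl
        rcases hl with rfl | rfl
        · exact e1
        · rw [hstep f hf, hstep g hg, e1]
      · exact hfg l hl
  have hoth : ∀ l, l ≠ i → l ≠ π i → π l = l := by
    intro l hl hl'
    by_contra hne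
    have d1 : π l ≠ i := fun he => hl' (π.injective (he.trans hinv.symm))
    have d2 : π l ≠ π i := fun he => hl (π.injective he)
    refine h2 {π i, π l} (by rw [Finset.card_pair d2.symm]) fun f g hf hg hfg => ?_
    have e0 : f i = g i := hfg i (by simp [Ne.symm hi, Ne.symm d1])
    have e1 : f l = g l := hfg l (by simp [hl', Ne.symm hne])
    funext r
    by_cases hr : r ∈ ({π i, π l} : Finset (Fin (n + 1)))
    · rw [Finset.mem_insert, Finset.mem_singleton] at hr
      rcases hr with rfl | rfl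
      · rw [hstep f hf, hstep g hg, e0]
      · rw [hstep f hf, hstep g hg, e1]
    · exact hfg r hr
  have hswap : π = Equiv.swap i (π i) := by
    refine Equiv.ext fun l => ?_
    by_cases h1 : l = i
    · subst h1; rw [swap_apply_left]
    by_cases h2 : l = π i
    · subst h2; rw [swap_apply_right, hinv]
    rw [swap_apply_of_ne_of_ne h1 h2, hoth l h1 h2]
  -- the restriction away from `π i` is onto
  let r : {f // x f = f} → ({l : Fin (n + 1) // l ≠ π i} → Fin m) := fun f l => f.1 l.1
  have hinj : Function.Injective r := by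
    intro f g hfg
    refine Subtype.ext (funext fun l => ?_)
    have hval : ∀ s, s ≠ π i → f.1 s = g.1 s := fun s hs => congrFun hfg ⟨s, hs⟩
    by_cases hl : l = π i
    · subst hl; rw [hstep _ f.2, hstep _ g.2, hval i (Ne.symm hi)]
    · exact hval l hl
  have hsur : Function.Surjective r := by
    refine ((Fintype.bijective_iff_injective_and_card r).2 ⟨hinj, ?_⟩).2
    rw [← Nat.card_eq_fintype_card, show Nat.card {f // x f = f} = fixCard x from rfl, h,
      Fintype.card_fun, Fintype.card_fin, Fintype.card_subtype_compl, Fintype.card_fin,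
      Fintype.card_subtype_eq, Nat.add_sub_cancel]
  have hval : ∀ (s : Fin (n + 1)) (y : Fin m), s ≠ π i → ∃ f, x f = f ∧ f s = y := by
    intro s y hs
    obtain ⟨f, hf⟩ := hsur fun _ => y
    exact ⟨f.1, f.2, congrFun hf ⟨s, hs⟩⟩
  refine ⟨i, π i, Ne.symm hi, hswap, Equiv.ext fun y => ?_, fun l hl hl' => Equiv.ext fun y => ?_⟩
  · obtain ⟨f, hf, hy⟩ := hval i y (Ne.symm hi)
    have e := hstep f hf (π i)
    rw [hinv, hstep f hf i, hy] at e
    rw [Perm.mul_apply, Perm.one_apply, ← e]
  · obtain ⟨f, hf, hy⟩ := hval l y hl'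
    have e := hstep f hf l
    rw [hoth l hl hl', hy] at e
    rw [Perm.one_apply, ← e]

end Counting

section Classify

variable {m : ℕ}

theorem fixCard_sq_coprime_nine {t : Perm (Fin 9)} (h4 : t ^ 4 = 1) (h2 : t ^ 2 ≠ 1) :
    (fixCard (t ^ 2)).Coprime 9 := by
  have ho : orderOf (t ^ 2) = 2 := orderOf_eq_prime (by rw [← pow_mul]; exact h4) h2
  obtain ⟨q, hq⟩ := cycleType_prime_order (σ := t ^ 2) (by rw [ho]; exact Nat.prime_two)
  rw [ho] at hq
  have hs : sign (t ^ 2) = 1 := by rw [map_pow, Int.units_sq]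
  have hsum := sum_cycleType (t ^ 2)
  rw [hq, Multiset.sum_replicate, smul_eq_mul] at hsum
  have hle := Finset.card_le_univ (t ^ 2).support
  rw [Fintype.card_fin] at hle
  have hpar : Even (q + 1) := by
    rw [sign_of_cycleType, hq, Multiset.sum_replicate, Multiset.card_replicate, smul_eq_mul] at hs
    rcases Nat.even_or_odd (q + 1) with he | he
    · exact he
    · rw [Odd.neg_one_pow (Even.add_odd ⟨q + 1, by ring⟩ he)] at hs
      exact absurd hs (by decide)
  rw [fixCard_eq, card_compl, Fintype.card_fin, ← hsum]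
  rw [Nat.even_iff] at hpar
  have : q = 1 ∨ q = 3 := by omega
  rcases this with rfl | rfl <;> decide

theorem fixCard_coprime {e : ℕ} (hcase : (m = 5 ∧ e = 2) ∨ (m = 6 ∧ e = 5) ∨ (m = 7 ∧ e = 3))
    {t : Perm (Fin m)} {a : Fin m} (ha : t a = a) (he : t ^ e = 1) (h : fixCard t ≠ m) :
    (fixCard t).Coprime m := by
  have h1 := one_le_fixCard ha
  have hne : t ≠ 1 := fun h' => h (by rw [h', fixCard_one, Fintype.card_fin])
  have h2 := fixCard_le_of_ne_one hne
  rw [Fintype.card_fin] at h2
  have hmod : ∀ p, p.Prime → t ^ p = 1 → fixCard t % p = m % p := by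
    intro p hp hpt
    have := Fact.mk hp
    have := card_compl_support_modEq (p := p) (n := 1) (σ := t) (by rw [pow_one]; exact hpt)
    rw [Fintype.card_fin, ← fixCard_eq] at this
    exact this
  rcases hcase with ⟨rfl, rfl⟩ | ⟨rfl, rfl⟩ | ⟨rfl, rfl⟩
  all_goals
    have := hmod _ (by norm_num) he
    generalize fixCard t = f at *
    interval_cases f <;> first | decide | omega

theorem classify {n : ℕ} (P : Param m) (hP : m = 5 ∨ m = 6 ∨ m = 7 ∨ m = 9) (_hn : 2 ≤ n)
    (π : Perm (Fin (n + 1))) (τ : Fin (n + 1) → Perm (Fin m)) (hπ : π 0 = 0)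
    (ha : ∀ i, τ i P.a = P.a) (hb : τ 0 P.b = P.b) (hx : IsConj (act π τ) (coord 0 P.v)) :
    (π = 1 ∧ ∃ j, j ≠ 0 ∧ (∀ i, i ≠ j → τ i = 1) ∧ IsConj (τ j) P.v) ∨
    (P.e = 2 ∧ ∃ i j, i ≠ 0 ∧ j ≠ 0 ∧ i ≠ j ∧ π = Equiv.swap i j ∧ τ i * τ j = 1 ∧
      ∀ l, l ≠ i → l ≠ j → τ l = 1) := by
  have hm : 2 ≤ m := by omega
  obtain ⟨c, hc⟩ := isConj_iff.1 hx
  have hpw : ∀ i : ℕ, c * act π τ ^ i * c⁻¹ = coord 0 (P.v ^ i) := by
    intro i; rw [map_pow, ← hc, conj_pow]
  have hone : ∀ i : ℕ, act π τ ^ i = 1 ↔ P.v ^ i = 1 := by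
    intro i
    rw [← coord_eq_one_iff hm (0 : Fin (n + 1)) (P.v ^ i), ← hpw i, conj_eq_one_iff]
  have hecases := P.e_cases hP
  have hv1 : P.v ≠ 1 := fun h => by
    have := P.orderOf_v
    rw [h, orderOf_one] at this
    omega
  have hfx : ∀ i : ℕ, P.v ^ i ≠ 1 → fixCard (act π τ ^ i) = m ^ n := by
    intro i hi
    have h1 : fixCard (P.v ^ i) = 1 := by
      refine Nat.card_eq_one_iff_unique.2 ⟨⟨fun x y => Subtype.ext ?_⟩,
        ⟨⟨P.a, (P.fix_pow i hi P.a).2 rfl⟩⟩⟩
      rw [(P.fix_pow i hi x.1).1 x.2, (P.fix_pow i hi y.1).1 y.2]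
    rw [fixCard_conj (hpw i), fixCard_coord, h1, one_mul]
  have hfx1 : fixCard (act π τ) = m ^ n := by simpa using hfx 1 (by simpa using hv1)
  by_cases hπ1 : π = 1
  · subst hπ1
    left
    refine ⟨rfl, ?_⟩
    have hτe : ∀ i, τ i ^ P.e = 1 := by
      have h := (hone P.e).2 (by rw [← P.orderOf_v, pow_orderOf_eq_one])
      rw [act_one_pow, act_eq_one_iff hm] at h
      exact fun i => congrFun h.2 i
    have hprod : ∀ k : ℕ, P.v ^ k ≠ 1 → ∏ i, fixCard (τ i ^ k) = m ^ n := by
      intro k hk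
      rw [← hfx k hk, act_one_pow, fixCard_act_one]
      rfl
    have hprod1 : ∏ i, fixCard (τ i) = m ^ n := by simpa using hprod 1 (by simpa using hv1)
    have hle : ∀ i, fixCard (τ i) ≤ m := fun i => by
      rw [fixCard_eq]; exact (Finset.card_le_univ _).trans (Fintype.card_fin m).le
    obtain ⟨j, hj, hrest⟩ : ∃ j, fixCard (τ j) = 1 ∧ ∀ i, i ≠ j → fixCard (τ i) = m := by
      rcases hecases with h | h | h | ⟨rfl, he⟩
      · exact exists_sole_of_coprime hm _ hprod1 fun i hi =>
          fixCard_coprime (.inl h) (ha i) (hτe i) hi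
      · exact exists_sole_of_coprime hm _ hprod1 fun i hi =>
          fixCard_coprime (.inr (.inl h)) (ha i) (hτe i) hi
      · exact exists_sole_of_coprime hm _ hprod1 fun i hi =>
          fixCard_coprime (.inr (.inr h)) (ha i) (hτe i) hi
      · have hv2 : P.v ^ 2 ≠ 1 := by
          intro h
          have := orderOf_dvd_of_pow_eq_one h
          rw [P.orderOf_v, he] at this
          omega
        obtain ⟨j, hj, -⟩ := exists_sole_of_coprime hm _ (hprod 2 hv2) fun i hi =>
          fixCard_sq_coprime_nine (he ▸ hτe i)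
            fun h => hi (by rw [h, fixCard_one, Fintype.card_fin])
        have hj1 : fixCard (τ j) = 1 := by
          refine le_antisymm ?_ (one_le_fixCard (ha j))
          rw [← hj]
          refine Nat.card_le_card_of_injective (fun x => (⟨x.1, by
            rw [pow_two, Perm.mul_apply, x.2, x.2]⟩ : {x // (τ j ^ 2) x = x})) ?_
          intro x y hxy
          exact Subtype.ext (congrArg Subtype.val hxy :)
        exact ⟨j, hj1, eq_of_factor_one hm _ hprod1 hle hj1⟩
    have htriv : ∀ i, i ≠ j → τ i = 1 := fun i hi =>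
      (fixCard_eq_card_iff _).1 (by rw [hrest i hi, Fintype.card_fin])
    have hj0 : j ≠ 0 := by
      rintro rfl
      exact P.hba (eq_of_fixCard_eq_one (ha 0) hj hb)
    have hact : act (1 : Perm (Fin (n + 1))) τ = coord j (τ j) := by
      show _ = act 1 (Pi.mulSingle j (τ j))
      congr 1
      funext i
      rcases eq_or_ne i j with rfl | h
      · rw [Pi.mulSingle_eq_same]
      · rw [Pi.mulSingle_eq_of_ne h, htriv i h]
    have hiff : ∀ k : ℕ, τ j ^ k = 1 ↔ P.v ^ k = 1 := fun k => by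
      rw [← hone k, hact, ← map_pow, coord_eq_one_iff hm]
    refine ⟨j, hj0, htriv, isConj_v_of_pow P ?_ fun k hk x => ?_⟩
    · rw [← P.orderOf_v]
      exact orderOf_eq_orderOf_iff.2 hiff
    · have h1 : fixCard (τ j ^ k) = 1 := by
        have h := hfx k (fun h => hk ((hiff k).2 h))
        rw [hact, ← map_pow, fixCard_coord] at h
        exact Nat.eq_of_mul_eq_mul_right (Nat.pow_pos (by omega)) (h.trans (one_mul _).symm)
      have hka : (τ j ^ k) P.a = P.a := pow_apply_eq_self_of_apply_eq_self (ha j) k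
      exact ⟨eq_of_fixCard_eq_one hka h1, fun hx => hx ▸ hka⟩
  · right
    obtain ⟨i, j, hij, rfl, hmul, hrest⟩ := eq_swap_of_fixCard hm hπ1 hfx1
    refine ⟨?_, i, j, ?_, ?_, hij, rfl, hmul, hrest⟩
    · have hsq : act (Equiv.swap i j) τ ^ 2 = 1 := by
        rw [pow_two, act_mul, swap_mul_self, ← act_one]
        congr 1
        funext l
        rw [Equiv.symm_swap, Pi.one_apply]
        by_cases h1 : l = i
        · subst h1; rw [swap_apply_left, hmul]
        by_cases h2 : l = j
        · subst h2; rw [swap_apply_right, mul_eq_one_comm.1 hmul]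
        · rw [swap_apply_of_ne_of_ne h1 h2, hrest l h1 h2, mul_one]
      have := orderOf_dvd_of_pow_eq_one ((hone 2).1 hsq)
      rw [P.orderOf_v] at this
      have := Nat.le_of_dvd (by norm_num) this
      omega
    · rintro rfl
      rw [swap_apply_left] at hπ
      exact hij hπ.symm
    · rintro rfl
      rw [swap_apply_right] at hπ
      exact hij hπ

end Classify

section Five

set_option synthInstance.maxSize 1000 in
/-- Pairwise commuting involutions on four values, together with `1`, are at most four. -/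
theorem card_commuting_le (S : Finset (Perm (Fin 5))) (ha : ∀ s ∈ S, s 4 = 4)
    (h : ∀ s ∈ S, s * s = 1) (hc : ∀ s ∈ S, ∀ t ∈ S, Commute s t) : S.card ≤ 4 := by
  let L : List (Perm (Fin 5)) :=
    [[0, 1].formPerm, [0, 2].formPerm, [0, 3].formPerm, [1, 2].formPerm, [1, 3].formPerm,
     [2, 3].formPerm, [0, 1].formPerm * [2, 3].formPerm, [0, 2].formPerm * [1, 3].formPerm,
     [0, 3].formPerm * [1, 2].formPerm]
  have hmem : ∀ s : Perm (Fin 5), s * s = 1 → s 4 = 4 → s = 1 ∨ s ∈ L := by decide +kernel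
  have hclique : ∀ s ∈ L, ∀ t ∈ L, s * t = t * s → s ≠ t → ∀ u ∈ L, s * u = u * s →
      t * u = u * t → s ≠ u → t ≠ u → ∀ w ∈ L, s * w = w * s → t * w = w * t →
      u * w = w * u → s ≠ w → t ≠ w → u = w := by decide +kernel
  by_contra hlt
  push Not at hlt
  have h0 : 4 ≤ (S.erase 1).card := by
    have := Finset.pred_card_le_card_erase (a := (1 : Perm (Fin 5))) (s := S)
    omega
  obtain ⟨s, hs⟩ : (S.erase 1).Nonempty := Finset.card_pos.1 (by omega)
  obtain ⟨t, ht⟩ : ((S.erase 1).erase s).Nonempty := Finset.card_pos.1 (by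
    rw [Finset.card_erase_of_mem hs]; omega)
  obtain ⟨u, hu⟩ : (((S.erase 1).erase s).erase t).Nonempty := Finset.card_pos.1 (by
    rw [Finset.card_erase_of_mem ht, Finset.card_erase_of_mem hs]; omega)
  obtain ⟨w, hw⟩ : ((((S.erase 1).erase s).erase t).erase u).Nonempty := Finset.card_pos.1 (by
    rw [Finset.card_erase_of_mem hu, Finset.card_erase_of_mem ht, Finset.card_erase_of_mem hs]
    omega)
  simp only [Finset.mem_erase] at hs ht hu hw
  obtain ⟨s1, sS⟩ := hs
  obtain ⟨ts, t1, tS⟩ := ht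
  obtain ⟨ut, us, u1, uS⟩ := hu
  obtain ⟨wu, wt, ws, w1, wS⟩ := hw
  have hL : ∀ r ∈ S, r ≠ 1 → r ∈ L := fun r hr hr1 =>
    (hmem r (h r hr) (ha r hr)).resolve_left hr1
  exact wu (hclique s (hL s sS s1) t (hL t tS t1) (hc s sS t tS) (Ne.symm ts) u (hL u uS u1)
    (hc s sS u uS) (hc t tS u uS) (Ne.symm us) (Ne.symm ut) w (hL w wS w1) (hc s sS w wS)
    (hc t tS w wS) (hc u uS w wS) (Ne.symm ws) (Ne.symm wt)).symm

end Five

end Cfsg.Agent.ProdAction
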