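import Cfsg.Agent.ProdAct.Descent

/-!
Doubly transitive groups with an element moving at most a quarter (or `3/11`) of the points.
-/

set_option autoImplicit false

namespace Cfsg.Agent.ProdAction

open Cfsg.Agent.ProdAct

/-- The middle inequality of `DescentCond`, divided by `N`. -/
theorem descent_poly_pos {N t : ℤ} (h : (64 ≤ N ∧ 4 * t ≤ N) ∨ (100 ≤ N ∧ 11 * t ≤ 3 * N))
    (ht8 : 8 ≤ t) (hsq : N ≤ t ^ 2) :
    0 < 9 * t ^ 3 - 6 * (N + 2) * t ^ 2 + (N ^ 2 + 11 * N - 3) * t - 3 * N * (N - 1) := by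
  have hN : 64 ≤ N := by omega
  have h0 : 0 < N := by omega
  by_cases h6 : 6 * t ≤ N
  · by_cases h12 : 12 ≤ t
    · have e : N * (9 * t ^ 3 - 6 * (N + 2) * t ^ 2 + (N ^ 2 + 11 * N - 3) * t - 3 * N * (N - 1))
          = 9 * t * (N - t) ^ 2 + t * (N - 3 * t) ^ 2 * (N - 1)
            - 3 * N * (N - 1) * (N - t) := by ring
      have hD : N * N ≤ 4 * (N - 3 * t) ^ 2 := by nlinarith
      have hA : t * (N * N) * (N - 1) ≤ t * (4 * (N - 3 * t) ^ 2) * (N - 1) :=
        mul_le_mul_of_nonneg_right (mul_le_mul_of_nonneg_left hD (by omega)) (by omega)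
      have hN1 : 0 < N - 1 := by omega
      have ht0 : 0 < t := by omega
      have hC : 0 < N * (N - 1) * t := by positivity
      have hB : 12 * (N * N * (N - 1)) ≤ t * (N * N * (N - 1)) :=
        mul_le_mul_of_nonneg_right h12 (by positivity)
      have hE : 0 ≤ t * (N - t) ^ 2 := by positivity
      have : 0 < N * (9 * t ^ 3 - 6 * (N + 2) * t ^ 2 + (N ^ 2 + 11 * N - 3) * t
          - 3 * N * (N - 1)) := by nlinarith
      exact pos_of_mul_pos_right this h0.le
    · interval_cases t <;> nlinarith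
  · have h6' : 0 ≤ 6 * t - N := by omega
    rcases h with ⟨-, h4⟩ | ⟨hN1, h11⟩
    · have hK : 144 * t ^ 2 - 60 * N * t + N ^ 2 - 192 * t + 128 * N - 48 ≤ 0 := by
        nlinarith [mul_nonneg h6' (sub_nonneg.2 h4), mul_le_mul_of_nonneg_right hN h0.le]
      have hP := mul_nonneg (sub_nonneg.2 h4) (sub_nonneg.2 hK)
      have hT : 0 < N * (N ^ 2 - 64 * N + 144) := by
        apply mul_pos h0
        nlinarith [mul_le_mul_of_nonneg_right hN h0.le]
      nlinarith only [hP, hT]
    · have hK : 1089 * t ^ 2 - 429 * N * t + 4 * N ^ 2 - 1452 * t + 935 * N - 363 ≤ 0 := by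
        nlinarith [mul_nonneg h6' (sub_nonneg.2 h11), mul_nonneg h0.le (sub_nonneg.2 h11),
          mul_le_mul_of_nonneg_right hN1 h0.le]
      have hP := mul_nonneg (sub_nonneg.2 h11) (sub_nonneg.2 hK)
      have hT : 0 < N * (12 * N ^ 2 - 1188 * N + 2904) := by
        apply mul_pos h0
        nlinarith [mul_le_mul_of_nonneg_right hN1 h0.le]
      nlinarith only [hP, hT]

theorem descentCond_of_small {N t : ℕ}
    (h : (64 ≤ N ∧ 4 * t ≤ N) ∨ (100 ≤ N ∧ 11 * t ≤ 3 * N)) (ht : N ≤ t ^ 2) :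
    DescentCond N t := by
  have hN : 64 ≤ N := by omega
  have h8 : 8 ≤ t := by nlinarith
  refine ⟨by omega, ?_, ?_⟩
  · have hpoly := descent_poly_pos (N := (N : ℤ)) (t := (t : ℤ)) (by omega)
      (by exact_mod_cast h8) (by exact_mod_cast ht)
    have hN' : (0 : ℤ) < N := by omega
    nlinarith only [mul_pos hN' hpoly]
  · have hN' : (64 : ℤ) ≤ N := by exact_mod_cast hN
    set D : ℤ := (N : ℤ) - 3 * t
    have h2 : 2 * (N : ℤ) ≤ 11 * D := by
      show 2 * (N : ℤ) ≤ 11 * ((N : ℤ) - 3 * t)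
      omega
    have hDN : D ≤ N := by
      show (N : ℤ) - 3 * t ≤ N
      omega
    have hNt : (N : ℤ) - t ≤ N := by omega
    have hNt0 : 0 ≤ (N : ℤ) - t := by omega
    have a1 : D ^ 2 * ((N : ℤ) - 1) ≤ D * N * ((N : ℤ) - 1) :=
      mul_le_mul_of_nonneg_right (by nlinarith) (by omega)
    have a2 : ((N : ℤ) - t) ^ 2 ≤ (N : ℤ) ^ 2 := by nlinarith
    have a3 : 9 * (N : ℤ) ^ 2 ≤ D * N * ((N : ℤ) - 1) := by nlinarith
    nlinarith

/-- A doubly transitive group containing a non-trivial element of small support contains the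
alternating group. -/
theorem alt_of_small {α : Type*} [Fintype α] [DecidableEq α] {G : Subgroup (Equiv.Perm α)}
    (hG : MulAction.IsMultiplyPretransitive G α 2) {x : Equiv.Perm α} (hx : x ∈ G) (hx1 : x ≠ 1)
    (h : (64 ≤ Fintype.card α ∧ 4 * x.support.card ≤ Fintype.card α) ∨
      (100 ≤ Fintype.card α ∧ 11 * x.support.card ≤ 3 * Fintype.card α)) :
    alternatingGroup α ≤ G := by
  refine alternatingGroup_le_of_small_support G ?_ x hx hx1 fun t _ ht2 ht3 =>
    descentCond_of_small (by omega) ht3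
  intro a a' b b' ha hb
  obtain ⟨g, e1, e2⟩ := MulAction.is_two_pretransitive_iff.1 hG ha hb
  exact ⟨g, g.2, e1, e2⟩

end Cfsg.Agent.ProdAction
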