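import Cfsg.Agent.ProdAction.Basic

/-!
An overgroup of the product-action wreath product either preserves the Hamming graph, hence lies
in the wreath product, or is 2-transitive.
-/

set_option autoImplicit false

namespace Cfsg.Agent.ProdAction

open Equiv Equiv.Perm Finset Function

variable {m k : ℕ}

/-- A permutation carrying one pair of values to another. -/
theorem exists_perm_pair {α : Type} [DecidableEq α] {a b a' b' : α} (h : a = b ↔ a' = b') :
    ∃ t : Perm α, t a = a' ∧ t b = b' := by
  by_cases hab : a = b
  · subst hab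
    exact ⟨swap a a', swap_apply_left _ _, by rw [swap_apply_left]; exact h.1 rfl⟩
  · refine ⟨swap (swap a a' b) b' * swap a a', ?_, ?_⟩
    · rw [Perm.mul_apply, swap_apply_left]
      refine swap_apply_of_ne_of_ne (fun e => hab ?_) (mt h.2 hab)
      have := congrArg (swap a a') e
      rwa [swap_apply_right, swap_apply_self] at this
    · simp

/-- `W` is transitive on the pairs at a given distance. -/
theorem exists_W_pair {x y x' y' : Pt m k} (h : hammingDist x y = hammingDist x' y') :
    ∃ w ∈ W m k, w x = x' ∧ w y = y' := by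
  classical
  have hc : Fintype.card {i // x i ≠ y i} = Fintype.card {i // x' i ≠ y' i} := by
    simpa [Fintype.card_subtype, hammingDist] using h
  let e := Fintype.equivOfCardEq hc
  let π : Perm (Fin k) := e.extendSubtype
  have hπ : ∀ i, x (π.symm i) = y (π.symm i) ↔ x' i = y' i := by
    intro i
    obtain ⟨j, rfl⟩ := π.surjective i
    rw [Equiv.symm_apply_apply]
    by_cases hj : x j = y j
    · simp only [hj, true_iff]
      exact not_not.1 (e.extendSubtype_not_mem j (not_not.2 hj))
    · simp only [hj, false_iff]
      exact e.extendSubtype_mem j hj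
  choose τ hx hy using fun i => exists_perm_pair (hπ i)
  exact ⟨act π τ, act_mem_W π τ, funext hx, funext hy⟩

/-- So is `Wev`. -/
theorem exists_Wev_pair (hm : 5 ≤ m) (hk : 2 ≤ k) {x y x' y' : Pt m k}
    (h : hammingDist x y = hammingDist x' y') :
    ∃ w ∈ Wev m k, w x = x' ∧ w y = y' := by
  obtain ⟨g, hg, hgx, hgy⟩ := exists_W_pair h
  by_cases hs : Even m ∨ sign g = 1
  · exact ⟨g, mem_Wev.2 ⟨hg, hs⟩, hgx, hgy⟩
  rw [not_or] at hs
  let i : Fin k := ⟨0, by omega⟩
  obtain ⟨u, -, hu⟩ := Finset.exists_mem_notMem_of_card_lt_card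
    (s := ({x' i, y' i} : Finset (Fin m))) (t := univ)
    (lt_of_le_of_lt card_le_two (by simp; omega))
  obtain ⟨v, -, hv⟩ := Finset.exists_mem_notMem_of_card_lt_card
    (s := ({x' i, y' i, u} : Finset (Fin m))) (t := univ)
    (lt_of_le_of_lt card_le_three (by simp; omega))
  simp only [Finset.mem_insert, Finset.mem_singleton, not_or] at hu hv
  refine ⟨coord i (swap u v) * g, mem_Wev.2 ⟨mul_mem (coord_mem_W _ _) hg, .inr ?_⟩, ?_, ?_⟩
  · rw [map_mul, sign_coord_of_odd (Nat.not_even_iff_odd.1 hs.1), sign_swap (Ne.symm hv.2.2),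
      (Int.units_eq_one_or _).resolve_left hs.2]
    rfl
  · rw [Perm.mul_apply, hgx, coord_fixed]
    exact swap_apply_of_ne_of_ne (Ne.symm hu.1) (Ne.symm hv.1)
  · rw [Perm.mul_apply, hgy, coord_fixed]
    exact swap_apply_of_ne_of_ne (Ne.symm hu.2) (Ne.symm hv.2.1)

theorem eq_update_of_dist_eq_one {x y : Pt m k} (h : hammingDist x y = 1) :
    ∃ j a, a ≠ x j ∧ y = update x j a := by
  obtain ⟨j, hj⟩ := Finset.card_eq_one.1 h
  have hj' : ∀ i, x i ≠ y i ↔ i = j := fun i => by
    simpa using Finset.ext_iff.1 hj i
  refine ⟨j, y j, Ne.symm ((hj' j).2 rfl), funext fun i => ?_⟩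
  rcases eq_or_ne i j with rfl | hi
  · simp
  · rw [update_of_ne hi]
    exact (not_not.1 fun e => hi ((hj' i).1 e)).symm

theorem dist_update_one {x : Pt m k} {j : Fin k} {a : Fin m} (h : a ≠ x j) :
    hammingDist x (update x j a) = 1 := by
  refine Finset.card_eq_one.2 ⟨j, ?_⟩
  ext i
  rcases eq_or_ne i j with rfl | hi
  · simp [h.symm]
  · simp [hi, update_of_ne hi]

theorem update_inj_of_dist {x : Pt m k} {i j : Fin k} {a b : Fin m} (ha : a ≠ x i) (hb : b ≠ x j)
    (h : hammingDist (update x i a) (update x j b) = 1) : i = j := by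
  by_contra hij
  have : ({i, j} : Finset (Fin k)) ⊆ univ.filter (fun l => update x i a l ≠ update x j b l) := by
    intro l hl
    rcases Finset.mem_insert.1 hl with rfl | hl
    · simpa [update_of_ne hij] using ha
    · rw [Finset.mem_singleton.1 hl]
      simpa [update_of_ne (Ne.symm hij)] using hb.symm
  have := Finset.card_le_card this
  rw [Finset.card_pair hij] at this
  exact absurd h (by unfold hammingDist; omega)

/-- The two common neighbours of a pair at distance 2. -/
theorem common_nbr {o v u : Pt m k} {i j : Fin k} (hij : i ≠ j) (hi : v i ≠ o i) (hj : v j ≠ o j)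
    (hp : hammingDist (update v i (o i)) u = 1) (hq : hammingDist (update v j (o j)) u = 1) :
    u = v ∨ u = update (update v i (o i)) j (o j) := by
  obtain ⟨l, a, -, rfl⟩ := eq_update_of_dist_eq_one hp
  obtain ⟨l', a', -, he⟩ := eq_update_of_dist_eq_one hq
  rcases eq_or_ne l i with rfl | hl
  · left
    rw [update_idem] at he ⊢
    rcases eq_or_ne l' j with rfl | hl'
    · have := congrFun he l
      simp [update_of_ne hij] at this
      simp [this]
    · exact absurd (congrFun he j) (by simp [update_of_ne hl'.symm, update_of_ne hij.symm, hj])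
  · right
    rcases eq_or_ne l' i with rfl | hl'
    · have := congrFun he j
      simp [update_of_ne hij.symm] at this
      rcases eq_or_ne l j with rfl | hlj
      · simp at this
        simp [this]
      · simp [update_of_ne hlj.symm, update_of_ne hij.symm, hj] at this
    · exact absurd (congrFun he i)
        (by simp [update_of_ne hl.symm, update_of_ne hl'.symm, update_of_ne hij, hi.symm])

/-- A permutation preserving adjacency and fixing a point with its neighbours is trivial. -/
theorem eq_one_of_fix {σ : Perm (Pt m k)} (o : Pt m k)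
    (hσ : ∀ x y : Pt m k, hammingDist x y = 1 → hammingDist (σ x) (σ y) = 1)
    (ho : σ o = o) (hn : ∀ i a, σ (update o i a) = update o i a) : σ = 1 := by
  suffices h : ∀ n v, hammingDist v o = n → σ v = v from Equiv.ext fun v => h _ v rfl
  intro n
  induction n using Nat.strong_induction_on with
  | _ n ih =>
  intro v hv
  rcases Nat.lt_or_ge n 2 with hn2 | hn2
  · interval_cases n
    · rw [hammingDist_eq_zero.1 hv]; exact ho
    · obtain ⟨i, a, -, rfl⟩ := eq_update_of_dist_eq_one (by rwa [hammingDist_comm] at hv)
      exact hn i a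
  obtain ⟨i, hi, j, hj, hij⟩ := Finset.one_lt_card.1
    (show 1 < #(univ.filter fun l => v l ≠ o l) by
      have : hammingDist v o = #(univ.filter fun l => v l ≠ o l) := rfl
      omega)
  simp only [mem_filter, mem_univ, true_and] at hi hj
  have hlt : ∀ (w : Pt m k) (l : Fin k), w l ≠ o l →
      hammingDist (update w l (o l)) o < hammingDist w o := by
    intro w l hl
    refine Finset.card_lt_card (Finset.ssubset_iff_of_subset ?_ |>.2 ⟨l, by simpa, by simp⟩)
    intro t ht
    rcases eq_or_ne t l with rfl | htl
    · simp at ht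
    · simpa [update_of_ne htl] using ht
  have hp := hlt v i hi
  have hq := hlt v j hj
  have hj' : update v i (o i) j ≠ o j := by rwa [update_of_ne hij.symm]
  have hr := hlt _ j hj'
  have fp := ih (hammingDist (update v i (o i)) o) (by omega) _ rfl
  have fq := ih (hammingDist (update v j (o j)) o) (by omega) _ rfl
  have fr := ih (hammingDist (update (update v i (o i)) j (o j)) o) (by omega) _ rfl
  have h1 : hammingDist (update v i (o i)) (σ v) = 1 := by
    have := hσ (update v i (o i)) v (by rw [hammingDist_comm]; exact dist_update_one hi.symm)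
    rwa [fp] at this
  have h2 : hammingDist (update v j (o j)) (σ v) = 1 := by
    have := hσ (update v j (o j)) v (by rw [hammingDist_comm]; exact dist_update_one hj.symm)
    rwa [fq] at this
  rcases common_nbr hij hi hj h1 h2 with h | h
  · exact h
  · have := σ.injective (h.trans fr.symm)
    exact absurd (congrFun this i) (by simp [update_of_ne hij, hi])

/-- Adjacency determines membership in `W`. -/
theorem mem_W_of_adj (hm : 2 ≤ m) {σ : Perm (Pt m k)}
    (hσ : ∀ x y : Pt m k, hammingDist x y = 1 → hammingDist (σ x) (σ y) = 1) : σ ∈ W m k := by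
  classical
  let o : Pt m k := fun _ => ⟨0, by omega⟩
  obtain ⟨g, hg, hgo, -⟩ := exists_W_pair (x := σ o) (y := σ o) (x' := o) (y' := o) (by simp)
  suffices h : g * σ ∈ W m k by simpa using mul_mem (inv_mem hg) h
  have hgd : ∀ x y : Pt m k, hammingDist (g x) (g y) = hammingDist x y := by
    obtain ⟨π, τ, rfl⟩ := mem_W_iff.1 hg
    intro x y
    refine (hammingDist_comp (fun i => τ i) (fun i => (τ i).injective)).trans ?_
    exact Finset.card_equiv π.symm (by simp)
  have hρ : ∀ x y : Pt m k, hammingDist x y = 1 → hammingDist ((g * σ) x) ((g * σ) y) = 1 :=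
    fun x y h => by rw [Perm.mul_apply, Perm.mul_apply, hgd]; exact hσ x y h
  have hρo : (g * σ) o = o := hgo
  generalize g * σ = ρ at hρ hρo ⊢
  have key : ∀ i, ∃ (p : Fin k) (t : Fin m → Fin m), Injective t ∧
      ∀ a, ρ (update o i a) = update o p (t a) := by
    intro i
    obtain ⟨a₀, ha₀⟩ : ∃ a, a ≠ o i := ⟨⟨1, by omega⟩, by simp [o, Fin.ext_iff]⟩
    have h0 := hρ o _ (dist_update_one (j := i) ha₀)
    rw [hρo] at h0
    obtain ⟨p, b₀, hb₀, he₀⟩ := eq_update_of_dist_eq_one h0
    refine ⟨p, fun a => ρ (update o i a) p, ?_, ?_⟩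
    swap
    · intro a
      rcases eq_or_ne a (o i) with rfl | ha
      · simp [hρo]
      · have h1 := hρ o _ (dist_update_one (j := i) ha)
        rw [hρo] at h1
        obtain ⟨q, b, hb, he⟩ := eq_update_of_dist_eq_one h1
        rcases eq_or_ne a a₀ with rfl | haa
        · simp [he₀]
        · have h2 := hρ (update o i a₀) (update o i a) (by
            have := dist_update_one (x := update o i a₀) (j := i) (a := a) (by simpa)
            rwa [update_idem] at this)
          rw [he₀, he] at h2
          obtain rfl := update_inj_of_dist hb₀ hb h2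
          simp [he]
    · intro a b hab
      suffices hpa : ∀ a, ρ (update o i a) = update o p (ρ (update o i a) p) by
        have hab' : ρ (update o i a) p = ρ (update o i b) p := hab
        have := ρ.injective ((hpa a).trans (hab' ▸ (hpa b).symm))
        simpa using congrFun this i
      intro a
      rcases eq_or_ne a (o i) with rfl | ha
      · simp [hρo]
      · have h1 := hρ o _ (dist_update_one (j := i) ha)
        rw [hρo] at h1
        obtain ⟨q, b, hb, he⟩ := eq_update_of_dist_eq_one h1
        rcases eq_or_ne a a₀ with rfl | haa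
        · simp [he₀]
        · have h2 := hρ (update o i a₀) (update o i a) (by
            have := dist_update_one (x := update o i a₀) (j := i) (a := a) (by simpa)
            rwa [update_idem] at this)
          rw [he₀, he] at h2
          obtain rfl := update_inj_of_dist hb₀ hb h2
          simp [he]
  choose p t ht hp using key
  have hto : ∀ i, t i (o i) = o (p i) := fun i => by
    have := congrFun (hp i (o i)) (p i)
    simpa [hρo] using this.symm
  have hpinj : Injective p := by
    intro i j hij
    by_contra hne
    obtain ⟨b, hb⟩ : ∃ b, b ≠ o j := ⟨⟨1, by omega⟩, by simp [o, Fin.ext_iff]⟩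
    obtain ⟨a, ha⟩ := (Finite.injective_iff_bijective.1 (ht i)).2 (t j b)
    have := ρ.injective ((hp i a).trans (by rw [ha, hij]; exact (hp j b).symm))
    exact hb (by simpa [update_of_ne (Ne.symm hne)] using (congrFun this j).symm)
  let π : Perm (Fin k) := Equiv.ofBijective p (Finite.injective_iff_bijective.1 hpinj)
  let τ : Fin k → Perm (Fin m) := fun j =>
    Equiv.ofBijective (t (π.symm j)) (Finite.injective_iff_bijective.1 (ht _))
  have hact : ∀ i a, act π τ (update o i a) = update o (p i) (t i a) := by
    intro i a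
    funext j
    obtain ⟨l, rfl⟩ := π.surjective j
    rw [act_apply, Equiv.symm_apply_apply]
    show t (π.symm (π l)) (update o i a l) = update o (p i) (t i a) (p l)
    rw [Equiv.symm_apply_apply]
    rcases eq_or_ne l i with rfl | hl
    · simp
    · rw [update_of_ne hl, update_of_ne (hpinj.ne hl), hto]
  have hout : (act π τ)⁻¹ * ρ = 1 := by
    have hacto : act π τ o = o := by
      funext j
      obtain ⟨l, rfl⟩ := π.surjective j
      rw [act_apply, Equiv.symm_apply_apply]
      show t (π.symm (π l)) (o l) = _
      rw [Equiv.symm_apply_apply, hto]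
    have hfix : ∀ v, ρ v = act π τ v → ((act π τ)⁻¹ * ρ) v = v := fun v h => by
      rw [Perm.mul_apply, h]; exact (act π τ).symm_apply_apply v
    refine eq_one_of_fix o ?_ (hfix o (hρo.trans hacto.symm))
      fun i a => hfix _ ((hp i a).trans (hact i a).symm)
    intro x y h
    rw [Perm.mul_apply, Perm.mul_apply, act_inv]
    refine Eq.trans ?_ (hρ x y h)
    refine (hammingDist_comp (fun i => ⇑((τ (π i))⁻¹ : Perm (Fin m))) (fun i => Equiv.injective _)).trans ?_
    exact Finset.card_equiv (π⁻¹).symm (by simp)
  rw [← inv_mul_eq_one.1 hout]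
  exact act_mem_W π τ

/-- A function of the distance to two different points is constant. -/
theorem dist_fun_const {ι : Type} [Fintype ι] [DecidableEq ι] (hm : 3 ≤ m)
    (g : ℕ → Prop) {x y : ι → Fin m} (hxy : x ≠ y)
    (h : ∀ z, g (hammingDist z x) ↔ g (hammingDist z y)) :
    ∀ v < Fintype.card ι, (g v ↔ g (v + 1)) := by
  classical
  obtain ⟨l, hl⟩ := Function.ne_iff.1 hxy
  intro v hv
  obtain ⟨c, -, hc⟩ := Finset.exists_mem_notMem_of_card_lt_card
    (s := ({x l, y l} : Finset (Fin m))) (t := univ) (lt_of_le_of_lt card_le_two (by simp; omega))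
  simp only [Finset.mem_insert, Finset.mem_singleton, not_or] at hc
  obtain ⟨s, hs, hsc⟩ := Finset.exists_subset_card_eq (n := v) (s := univ.erase l)
    (by rw [card_erase_of_mem (mem_univ l), card_univ]; omega)
  let z : ι → Fin m := fun j =>
    if j ∈ s then (if x j = x l then c else x l) else x j
  have hls : l ∉ s := fun e => by simpa using hs e
  have hz : ∀ j, z j ≠ x j ↔ j ∈ s := by
    intro j
    simp only [z]
    split_ifs with h1 h2
    · simp [h1, h2, hc.1]
    · simp [h1, Ne.symm h2]
    · simp [h1]
  have hzl : z l = x l := not_not.1 (mt (hz l).1 hls)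
  have e1 : hammingDist z x = v := by
    rw [← hsc]; exact congrArg card (by ext j; simp [hz])
  have e2 : hammingDist (update z l c) x = v + 1 := by
    rw [← hsc, ← card_insert_of_notMem hls]
    refine congrArg card ?_
    ext j
    rcases eq_or_ne j l with rfl | hj
    · simp [hc.1]
    · simp [update_of_ne hj, hz, hj]
  have e3 : hammingDist z y = hammingDist (update z l c) y := by
    refine congrArg card ?_
    ext j
    rcases eq_or_ne j l with rfl | hj
    · simp [hc.2, hzl, hl]
    · simp [update_of_ne hj]
  rw [← e1, ← e2] at *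
  rw [h z, e3, ← h (update z l c)]

section Count

variable (f : ℕ → Prop)

open scoped Classical in
/-- The points whose distance profile separates `x` from `y`. -/
noncomputable def sep (x y : Pt m k) : ℕ :=
  ∑ z : Pt m k, if (f (hammingDist z x) ↔ f (hammingDist z y)) then 0 else 1

theorem dist_split (i : Fin k) (z x : Pt m k) :
    hammingDist z x = (if z i = x i then 0 else 1) +
      hammingDist (fun j : {j // j ≠ i} => z j) (fun j : {j // j ≠ i} => x j) := by
  unfold hammingDist
  rw [Finset.card_filter, Finset.card_filter,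
    Fintype.sum_eq_add_sum_subtype_ne (fun j => if z j ≠ x j then 1 else 0) i]
  simp [ite_not]

/-- Points at distance 1 minimise `sep` strictly. -/
theorem sep_lt (hm : 5 ≤ m) (hf : ∃ v, v + 1 < k ∧ ¬(f (v + 1) ↔ f (v + 2)))
    {x y : Pt m k} {i : Fin k} (hi : x i ≠ y i) (h2 : 2 ≤ hammingDist x y) :
    sep f x (update x i (y i)) < sep f x y := by
  classical
  let J := {j : Fin k // j ≠ i}
  let e : Fin m × (J → Fin m) ≃ Pt m k := (Equiv.funSplitAt i (Fin m)).symm
  have hei : ∀ q, e q i = q.1 := fun q => by simp [e, Equiv.funSplitAt, Equiv.piSplitAt]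
  have hej : ∀ q (j : J), e q j = q.2 j := fun q j => by
    simp [e, Equiv.funSplitAt, Equiv.piSplitAt, j.2]
  set u : J → Fin m := fun j => x j with hu
  set u' : J → Fin m := fun j => y j with hu'
  have huu : u ≠ u' := by
    intro h
    have := dist_split i x y
    simp only [if_neg hi] at this
    rw [show (fun j : J => x j) = fun j : J => y j from h, hammingDist_self] at this
    omega
  have hsum : ∀ y' : Pt m k, sep f x y' = ∑ z' : J → Fin m, ∑ a : Fin m,
      if (f ((if a = x i then 0 else 1) + hammingDist z' u) ↔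
        f ((if a = y' i then 0 else 1) + hammingDist z' fun j : J => y' j)) then 0 else 1 := by
    intro y'
    rw [sep, ← e.sum_comp, Fintype.sum_prod_type, Finset.sum_comm]
    refine Finset.sum_congr rfl fun z' _ => Finset.sum_congr rfl fun a _ => ?_
    rw [dist_split i (e (a, z')) x, dist_split i (e (a, z')) y']
    simp only [hei, hej]
    rfl
  have hinner : ∀ A B A' B' : Prop, ∀ [Decidable A] [Decidable B] [Decidable A'] [Decidable B'],
      (∑ a : Fin m, if ((if a = x i then A else B) ↔ (if a = y i then A' else B')) then 0 else 1) =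
      (if A ↔ B' then 0 else 1) + ((if B ↔ A' then 0 else 1) +
        (m - 2) * (if B ↔ B' then 0 else 1)) := by
    intro A B A' B' _ _ _ _
    rw [← Finset.sum_erase_add _ _ (mem_univ (x i)),
      ← Finset.sum_erase_add _ _ (show y i ∈ univ.erase (x i) by simp [hi.symm])]
    rw [Finset.sum_congr rfl (g := fun _ => if B ↔ B' then 0 else 1) (fun a ha => by
      simp at ha; simp [ha.1, ha.2])]
    rw [Finset.sum_const, smul_eq_mul,
      card_erase_of_mem (by simp [hi.symm]), card_erase_of_mem (mem_univ _), card_univ,
      Fintype.card_fin]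
    simp [hi, hi.symm]
    split_ifs <;> omega
  have hif : ∀ (a b : Fin m) (w : ℕ),
      f ((if a = b then 0 else 1) + w) ↔ (if a = b then f w else f (1 + w)) := by
    intro a b w; split <;> simp
  have hD : sep f x y = ∑ z' : J → Fin m,
      ((if f (hammingDist z' u) ↔ f (1 + hammingDist z' u') then 0 else 1) +
      ((if f (1 + hammingDist z' u) ↔ f (hammingDist z' u') then 0 else 1) +
        (m - 2) * (if f (1 + hammingDist z' u) ↔ f (1 + hammingDist z' u') then 0 else 1))) := by
    rw [hsum]
    refine Finset.sum_congr rfl fun z' _ => ?_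
    rw [← hinner]
    exact Finset.sum_congr rfl fun a _ => if_congr (by rw [hif, hif]) rfl rfl
  have hE : sep f x (update x i (y i)) = ∑ z' : J → Fin m,
      ((if f (hammingDist z' u) ↔ f (1 + hammingDist z' u) then 0 else 1) +
       (if f (hammingDist z' u') ↔ f (1 + hammingDist z' u') then 0 else 1)) := by
    have hbij : (∑ z' : J → Fin m,
        if f (hammingDist z' u') ↔ f (1 + hammingDist z' u') then 0 else 1) =
        ∑ z' : J → Fin m, if f (hammingDist z' u) ↔ f (1 + hammingDist z' u) then 0 else 1 := by
      refine Fintype.sum_equiv (Equiv.piCongrRight fun j => swap (u j) (u' j)) _ _ ?_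
      intro z'
      have : hammingDist (fun j => swap (u j) (u' j) (z' j)) u = hammingDist z' u' := by
        rw [show u = fun j => swap (u j) (u' j) (u' j) by funext j; simp]
        simpa using hammingDist_comp (fun j => swap (u j) (u' j)) (fun j => Equiv.injective _)
          (x := z') (y := u')
      simp only [Equiv.piCongrRight, Equiv.coe_fn_mk]
      unfold Pi.map
      simp only [this]
    rw [Finset.sum_add_distrib, hbij, ← Finset.sum_add_distrib, hsum]
    refine Finset.sum_congr rfl fun z' _ => ?_
    have : (fun j : J => update x i (y i) j) = u := funext fun j => update_of_ne j.2 _ _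
    rw [this]
    refine Eq.trans ?_ (hinner (f (hammingDist z' u)) (f (1 + hammingDist z' u))
      (f (hammingDist z' u)) (f (1 + hammingDist z' u)) |>.trans ?_)
    · exact Finset.sum_congr rfl fun a _ => if_congr (by rw [hif, hif, update_self]) rfl rfl
    · simp [iff_comm]
  rw [hD, hE]
  refine Finset.sum_lt_sum (fun z' _ => ?_) ?_
  · by_cases hb : f (1 + hammingDist z' u) ↔ f (1 + hammingDist z' u')
    · simp [hb, iff_comm]
    · simp only [hb, if_false]
      split_ifs <;> omega
  · by_contra hno
    obtain ⟨v, hv, hne⟩ := hf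
    refine hne (dist_fun_const (by omega) (fun n => f (n + 1)) huu (fun z' => ?_) v (by
      simp [J, Fintype.card_subtype_compl]; omega))
    by_contra hb
    refine hno ⟨z', mem_univ _, ?_⟩
    rw [add_comm _ 1, add_comm _ 1] at hb
    simp only [hb, if_false]
    split_ifs <;> omega

end Count

/-- An overgroup of `Wev` is inside `W` or 2-transitive. -/
theorem le_or_two_transitive (hm : 5 ≤ m) (hk : 2 ≤ k) {G : Subgroup (Perm (Pt m k))}
    (hW : Wev m k ≤ G) : G ≤ W m k ∨ MulAction.IsMultiplyPretransitive G (Pt m k) 2 := by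
  classical
  refine or_iff_not_imp_right.2 fun h2 => ?_
  rw [MulAction.is_two_pretransitive_iff] at h2
  push Not at h2
  obtain ⟨x₀, y₀, x₁, y₁, hne, hne', hno⟩ := h2
  let f : ℕ → Prop := fun d => ∃ g ∈ G, hammingDist (g x₀) (g y₀) = d
  have hinv : ∀ g ∈ G, ∀ u v : Pt m k,
      f (hammingDist u v) → f (hammingDist (g u) (g v)) := by
    rintro g hg u v ⟨h, hh, hd⟩
    obtain ⟨w, hw, hwu, hwv⟩ := exists_Wev_pair hm hk hd
    exact ⟨g * w * h, mul_mem (mul_mem hg (hW hw)) hh, by simp [Perm.mul_apply, hwu, hwv]⟩
  have hinv' : ∀ g ∈ G, ∀ u v : Pt m k,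
      f (hammingDist (g u) (g v)) ↔ f (hammingDist u v) := fun g hg u v =>
    ⟨fun h => by simpa using hinv g⁻¹ (inv_mem hg) _ _ h, hinv g hg u v⟩
  have hf0 : f (hammingDist x₀ y₀) := ⟨1, one_mem _, by simp⟩
  have hf1 : ¬ f (hammingDist x₁ y₁) := by
    rintro ⟨g, hg, hd⟩
    obtain ⟨w, hw, hwu, hwv⟩ := exists_Wev_pair hm hk hd
    exact hno ⟨w * g, mul_mem (hW hw) hg⟩ hwu hwv
  have hbd : ∀ a b : Pt m k, a ≠ b → 1 ≤ hammingDist a b ∧ hammingDist a b ≤ k := fun a b h =>
    ⟨hammingDist_pos.2 h, hammingDist_le_card_fintype.trans_eq (Fintype.card_fin k)⟩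
  have hjump : ∃ v, v + 1 < k ∧ ¬(f (v + 1) ↔ f (v + 2)) := by
    by_contra hno'
    push Not at hno'
    have : ∀ d, 1 ≤ d → d ≤ k → (f d ↔ f 1) := by
      intro d
      induction d with
      | zero => omega
      | succ n ih =>
        intro _ hn
        rcases n with _ | n
        · exact Iff.rfl
        · exact (hno' n (by omega)).symm.trans (ih (by omega) (by omega))
    obtain ⟨a1, a2⟩ := hbd _ _ hne
    obtain ⟨b1, b2⟩ := hbd _ _ hne'
    exact hf1 ((this _ b1 b2).2 ((this _ a1 a2).1 hf0))
  have hsep : ∀ g ∈ G, ∀ u v : Pt m k, sep f (g u) (g v) = sep f u v := by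
    intro g hg u v
    unfold sep
    rw [← g.sum_comp _ _ (fun a _ => mem_univ a)]
    refine Finset.sum_congr rfl fun z _ => ?_
    have h1 := hinv' g hg z u
    have h2 := hinv' g hg z v
    split_ifs <;> simp_all
  have hsame : ∀ a b a' b' : Pt m k, hammingDist a b = hammingDist a' b' →
      sep f a b = sep f a' b' := by
    intro a b a' b' h
    obtain ⟨w, hw, rfl, rfl⟩ := exists_Wev_pair hm hk h
    exact (hsep w (hW hw) a b).symm
  intro g hg
  refine mem_W_of_adj (by omega) fun a b hab => ?_
  by_contra hne2
  have hpos : g a ≠ g b := g.injective.ne (fun e => by simp [e] at hab)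
  have h2' : 2 ≤ hammingDist (g a) (g b) := by have := (hbd _ _ hpos).1; omega
  obtain ⟨i, hi⟩ := Function.ne_iff.1 hpos
  have hlt := sep_lt f hm hjump hi h2'
  rw [hsep g hg, ← hsame a b _ _ (hab.trans (dist_update_one (Ne.symm hi)).symm)] at hlt
  exact lt_irrefl _ hlt

theorem card_sphere (x : Pt m k) (d : ℕ) :
    #(univ.filter fun z : Pt m k => hammingDist x z = d) = k.choose d * (m - 1) ^ d := by
  classical
  rw [Finset.card_eq_sum_card_fiberwise
    (f := fun z : Pt m k => univ.filter fun i => x i ≠ z i)
    (t := powersetCard d (univ : Finset (Fin k)))]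
  swap
  · intro z hz
    simpa [mem_powersetCard, hammingDist] using hz
  rw [Finset.sum_congr rfl (g := fun _ => (m - 1) ^ d), sum_const, card_powersetCard, card_univ,
    Fintype.card_fin, smul_eq_mul]
  intro S hS
  rw [mem_powersetCard] at hS
  have : (univ.filter fun z : Pt m k => hammingDist x z = d).filter
      (fun z => (univ.filter fun i => x i ≠ z i) = S) =
      Fintype.piFinset fun i => if i ∈ S then univ.erase (x i) else {x i} := by
    ext z
    simp only [mem_filter, mem_univ, true_and, Fintype.mem_piFinset]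
    constructor
    · rintro ⟨-, rfl⟩ i
      by_cases h : x i = z i
      · simp [h]
      · simp [h, Ne.symm h]
    · intro h
      have : (univ.filter fun i => x i ≠ z i) = S := by
        ext i
        have := h i
        by_cases hi : i ∈ S
        · simp [hi] at this; simp [hi, Ne.symm this]
        · simp [hi] at this; simp [hi, this]
      exact ⟨by rw [← hS.2, ← this]; rfl, this⟩
  rw [this, Fintype.card_piFinset]
  rw [Finset.prod_congr rfl (g := fun i => if i ∈ S then (m - 1) else 1) (fun i _ => by
    by_cases hi : i ∈ S <;> simp [hi]), Finset.prod_ite_mem]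
  simp [hS.2]

theorem lt_choose_mul (k : ℕ) : ∀ d, 2 ≤ d → d ≤ k → k < k.choose d * 4 ^ (d - 1) := by
  induction k with
  | zero => omega
  | succ k ih =>
    intro d h2 hd
    rcases Nat.lt_or_ge k d with h | h
    · obtain rfl : d = k + 1 := by omega
      simp only [Nat.choose_self, one_mul, Nat.add_sub_cancel]
      have : k - 1 < 4 ^ (k - 1) := Nat.lt_pow_self (by omega)
      have h4 : 4 ^ k = 4 * 4 ^ (k - 1) := by rw [← pow_succ']; congr 1; omega
      omega
    · obtain ⟨e, rfl⟩ : ∃ e, d = e + 1 := ⟨d - 1, by omega⟩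
      have h1 := ih (e + 1) h2 h
      have hp : 0 < k.choose e := Nat.choose_pos (by omega)
      have h4 : 1 ≤ 4 ^ e := Nat.one_le_pow _ _ (by omega)
      rw [Nat.choose_succ_succ', add_mul]
      simp only [Nat.add_sub_cancel] at h1 ⊢
      have : 1 ≤ k.choose e * 4 ^ e := Nat.mul_pos hp h4
      omega

/-- The normaliser of the even part of `W` is `W`, for odd `m`. -/
theorem le_W_of_inf_alt_le (hm : 5 ≤ m) (hk : 2 ≤ k) (hodd : Odd m)
    {G : Subgroup (Perm (Pt m k))} (hW : Wev m k ≤ G)
    (h : G ⊓ alternatingGroup (Pt m k) ≤ W m k) : G ≤ W m k := by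
  classical
  have hdist : ∀ w ∈ W m k, ∀ a b : Pt m k, hammingDist (w a) (w b) = hammingDist a b := by
    intro w hw a b
    obtain ⟨π, τ, rfl⟩ := mem_W_iff.1 hw
    refine (hammingDist_comp (fun i => τ i) (fun i => (τ i).injective)).trans ?_
    exact Finset.card_equiv π.symm (by simp)
  have hwa : ∀ w ∈ Wev m k, sign w = 1 := fun w hw => by
    rcases (mem_Wev.1 hw).2 with he | he
    · exact absurd he (Nat.not_even_iff_odd.2 hodd)
    · exact he
  -- every element sends a distance class into a distance class
  have hclass : ∀ g ∈ G, ∀ a b a' b' : Pt m k, hammingDist a b = hammingDist a' b' →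
      hammingDist (g a) (g b) = hammingDist (g a') (g b') := by
    intro g hg a b a' b' hd
    obtain ⟨w, hw, rfl, rfl⟩ := exists_Wev_pair hm hk hd
    have hn : g * w * g⁻¹ ∈ W m k := h <| Subgroup.mem_inf.2
      ⟨mul_mem (mul_mem hg (hW hw)) (inv_mem hg), by
      rw [Perm.mem_alternatingGroup, map_mul, map_mul, hwa w hw, mul_one, map_inv,
        mul_inv_cancel]⟩
    have := hdist _ hn (g a) (g b)
    simpa [Perm.mul_apply] using this.symm
  intro g hg
  refine mem_W_of_adj (by omega) fun a b hab => ?_
  by_contra hne
  have hd2 : 2 ≤ hammingDist (g a) (g b) := by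
    have : 0 < hammingDist (g a) (g b) :=
      hammingDist_pos.2 (g.injective.ne fun e => by simp [e] at hab)
    omega
  set d := hammingDist (g a) (g b) with hd
  have hdk : d ≤ k := hammingDist_le_card_fintype.trans_eq (Fintype.card_fin k)
  have hcard : #(univ.filter fun z : Pt m k => hammingDist a z = 1) =
      #(univ.filter fun z : Pt m k => hammingDist (g a) z = d) := by
    refine Finset.card_equiv g fun z => ?_
    simp only [mem_filter, mem_univ, true_and]
    constructor
    · exact fun hz => (hclass g hg a z a b (hz.trans hab.symm)).trans hd.symm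
    · intro hz
      have := hclass g⁻¹ (inv_mem hg) (g a) (g z) (g a) (g b) (hz.trans hd)
      simpa [hab] using this
  rw [card_sphere, card_sphere, Nat.choose_one_right, pow_one] at hcard
  obtain ⟨e, he⟩ : ∃ e, d = e + 1 := ⟨d - 1, by omega⟩
  have h4 := lt_choose_mul k d hd2 hdk
  rw [he, Nat.add_sub_cancel] at h4
  have hle : 4 ^ e ≤ (m - 1) ^ e := Nat.pow_le_pow_left (by omega) e
  have : k < k.choose (e + 1) * (m - 1) ^ e :=
    lt_of_lt_of_le h4 (Nat.mul_le_mul_left _ hle)
  rw [he, pow_succ, ← mul_assoc] at hcard
  exact absurd (Nat.eq_of_mul_eq_mul_right (by omega) hcard) (by omega)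

end Cfsg.Agent.ProdAction
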