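import Cfsg.Agent.ProdAction.Descent
import Cfsg.Agent.ProdAction.Dist

/-!
Maximality of the product action wreath product for large `m`.
-/

set_option autoImplicit false

namespace Cfsg.Agent.ProdAction

open Equiv Equiv.Perm

variable {m k : ℕ}

theorem card_coord_support (j : Fin k) (t : Perm (Fin m)) :
    (coord j t).support.card = t.support.card * m ^ (k - 1) := by
  classical
  let e : Pt m k ≃ Fin m × ({i // i ≠ j} → Fin m) := Equiv.funSplitAt j (Fin m)
  have : (coord j t).support.map e.toEmbedding
      = t.support ×ˢ (Finset.univ : Finset ({i // i ≠ j} → Fin m)) := by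
    ext p
    simp only [Finset.mem_map_equiv, Perm.mem_support, Finset.mem_product, Finset.mem_univ,
      and_true, Ne, coord_fixed]
    simp [e, Equiv.funSplitAt, Equiv.piSplitAt]
  rw [← Finset.card_map e.toEmbedding, this, Finset.card_product, Finset.card_univ,
    Fintype.card_fun, Fintype.card_subtype_compl]
  simp

/-- The case `m = 8` or `m ≥ 10`. -/
theorem key_large (hm : 10 ≤ m ∨ m = 8) (hk : 2 ≤ k) : Key m k := by
  classical
  intro G hG
  rcases le_or_two_transitive (by omega) hk hG with h | h2
  · exact Or.inl h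
  refine Or.inr ?_
  let j : Fin k := ⟨0, by omega⟩
  let a : Fin m := ⟨0, by omega⟩
  let b : Fin m := ⟨1, by omega⟩
  let c : Fin m := ⟨2, by omega⟩
  have hab : a ≠ b := by simp [a, b, Fin.ext_iff]
  have hac : a ≠ c := by simp [a, c, Fin.ext_iff]
  have hbc : b ≠ c := by simp [b, c, Fin.ext_iff]
  have hN : Fintype.card (Pt m k) = m * m ^ (k - 1) := by
    rw [Fintype.card_fun, Fintype.card_fin, Fintype.card_fin, ← pow_succ']
    congr 1
    omega
  have hge : m ≤ m ^ (k - 1) := Nat.le_self_pow (by omega) m
  have hne : ∀ t : Perm (Fin m), t.support.card ≠ 0 → coord j t ≠ 1 := fun t ht he => by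
    have := card_coord_support j t
    rw [he, Perm.support_one, Finset.card_empty] at this
    exact Nat.mul_ne_zero ht (by omega) this.symm
  rcases Nat.even_or_odd m with he | ho
  · have hs : (Equiv.swap a b).support.card = 2 := Perm.card_support_eq_two.2 ⟨a, b, hab, rfl⟩
    refine alt_of_small h2 (x := coord j (Equiv.swap a b))
      (hG (mem_Wev.2 ⟨coord_mem_W _ _, Or.inl he⟩)) (hne _ (by omega)) (Or.inl ⟨?_, ?_⟩)
    · rw [hN]
      exact le_trans (by norm_num) (Nat.mul_le_mul (show 8 ≤ m by omega) ((show 8 ≤ m by omega).trans hge))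
    · rw [hN, card_coord_support, hs, ← mul_assoc]
      exact Nat.mul_le_mul_right _ (by omega)
  · have hm11 : 11 ≤ m := by
      rcases ho with ⟨r, rfl⟩; omega
    have h3 : (Equiv.swap a b * Equiv.swap b c).IsThreeCycle := by
      rw [Equiv.swap_comm a b]
      exact isThreeCycle_swap_mul_swap_same hab.symm hbc hac
    refine alt_of_small h2 (x := coord j (Equiv.swap a b * Equiv.swap b c))
      (hG (coord_mem_Wev_of_sign j h3.sign)) (hne _ (by rw [h3.card_support]; omega))
      (Or.inr ⟨?_, ?_⟩)
    · rw [hN]; nlinarith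
    · rw [hN, card_coord_support, h3.card_support, ← mul_assoc, ← mul_assoc]
      exact Nat.mul_le_mul_right _ (by omega)

end Cfsg.Agent.ProdAction
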