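import Cfsg.Agent.ProdAction.Basic

/-!
Product elements of order three with many fixed points move one coordinate only.
-/

set_option autoImplicit false

namespace Cfsg.Agent.ProdAction

open Equiv Equiv.Perm

variable {m n : ℕ}

theorem moves_one_coord (hm : 5 ≤ m) (hn : 2 ≤ n) {σ : Perm (Pt m n)} (hW : σ ∈ W m n)
    (h3 : σ ^ 3 = 1) (hF : m * Nat.card {f // σ f = f} = (m - 3) * m ^ n) :
    ∃ j, ∀ f i, i ≠ j → σ f i = f i := by
  classical
  obtain ⟨π, τ, rfl⟩ := mem_W_iff.1 hW
  have h3' := h3
  rw [pow_succ, pow_two, act_mul, act_mul, act_eq_one_iff (by omega)] at h3'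
  have hpos : 0 < (m - 3) * m ^ n := Nat.mul_pos (by omega) (pow_pos (by omega) n)
  have hm0 : 0 < m := by omega
  by_cases hπ : π = 1
  · subst hπ
    have hτ3 : ∀ i, τ i ^ 3 = 1 := fun i => by
      have := congrFun h3'.2 i
      rw [mul_one, show (1 : Perm (Fin n)).symm i = i from rfl] at this
      rw [pow_succ, pow_two]
      exact this
    have hmoved : ∀ i, τ i ≠ 1 → Nat.card {x // τ i x = x} ≤ m - 3 := by
      intro i hi
      have h2 : 3 ≤ (τ i).support.card := by
        have ho : orderOf (τ i) = 3 := by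
          rcases Nat.prime_three.eq_one_or_self_of_dvd _ (orderOf_dvd_of_pow_eq_one (hτ3 i)) with h | h
          · exact absurd (orderOf_eq_one_iff.1 h) hi
          · exact h
        obtain ⟨r, hr⟩ := cycleType_prime_order (σ := τ i) (ho ▸ Nat.prime_three)
        rw [← sum_cycleType, hr, Multiset.sum_replicate, ho, smul_eq_mul]
        omega
      have h4 : Finset.univ.filter (fun x => τ i x = x) = (τ i).supportᶜ := by ext x; simp
      rw [Nat.card_eq_fintype_card, Fintype.card_subtype, h4, Finset.card_compl, Fintype.card_fin]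
      omega
    have hcard : Nat.card {f // act 1 τ f = f} = ∏ i, Nat.card {x // τ i x = x} := by
      rw [← Nat.card_pi]
      exact Nat.card_congr ((Equiv.subtypeEquivRight fun f => by
        simp [funext_iff, Perm.one_def]).trans
        (Equiv.subtypePiEquivPi (p := fun i x => τ i x = x)))
    by_contra hno
    push Not at hno
    obtain ⟨f, i, -, hi⟩ := hno ⟨0, by omega⟩
    obtain ⟨f', i', hii', hi'⟩ := hno i
    have hi1 : τ i ≠ 1 := fun h => hi (by simp [h, Perm.one_def])
    have hi1' : τ i' ≠ 1 := fun h => hi' (by simp [h, Perm.one_def])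
    have hle : ∏ j, Nat.card {x // τ j x = x} ≤
        ∏ j, (if j = i ∨ j = i' then m - 3 else m) := Finset.prod_le_prod' fun j _ => by
      split
      · rename_i h; rcases h with rfl | rfl
        · exact hmoved _ hi1
        · exact hmoved _ hi1'
      · exact (Nat.card_le_card_of_injective _ Subtype.val_injective).trans (Nat.card_fin m).le
    rw [← hcard] at hle
    have heq : ∏ j, (if j = i ∨ j = i' then m - 3 else m) = (m - 3) ^ 2 * m ^ (n - 2) := by
      rw [Finset.prod_ite, Finset.prod_const, Finset.prod_const,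
        show Finset.univ.filter (fun j => j = i ∨ j = i') = {i, i'} by ext; simp,
        Finset.filter_not, ← Finset.compl_eq_univ_sdiff,
        show Finset.univ.filter (fun j => j = i ∨ j = i') = {i, i'} by ext; simp,
        Finset.card_compl, Finset.card_pair hii'.symm, Fintype.card_fin]
    rw [heq] at hle
    obtain ⟨r, rfl⟩ : ∃ r, n = r + 2 := ⟨n - 2, by omega⟩
    have hle' := Nat.mul_le_mul_left m hle
    rw [hF, Nat.add_sub_cancel, pow_succ, pow_succ] at hle'
    have hp := pow_pos hm0 r
    obtain ⟨s, rfl⟩ : ∃ s, m = s + 3 := ⟨m - 3, by omega⟩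
    rw [Nat.add_sub_cancel] at hle'
    nlinarith [Nat.mul_pos (Nat.mul_pos hp (show 0 < s by omega)) hm0]
  · exfalso
    have hπ3 : ∀ x, π (π (π x)) = x := fun x => by
      have := Equiv.ext_iff.1 h3'.1 x
      simpa using this
    obtain ⟨x, hx⟩ : ∃ x, π x ≠ x := by
      by_contra h; push Not at h; exact hπ (Equiv.ext h)
    have hxy : π (π x) ≠ π x := fun h => hx (π.injective h)
    have hxz : π (π x) ≠ x := fun h => hx (by
      have := congrArg π h
      rw [hπ3] at this
      exact this.symm)
    let res : {f // act π τ f = f} → ({i // i ≠ π x ∧ i ≠ π (π x)} → Fin m) := fun f i => f.1 i.1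
    have hinj : Function.Injective res := by
      intro f g hfg
      have hd : ∀ (i : Fin n), f.1 i = g.1 i → f.1 (π i) = g.1 (π i) := fun i h => by
        have h1 := congrFun f.2 (π i)
        have h2 := congrFun g.2 (π i)
        simp only [act_apply, Equiv.symm_apply_apply] at h1 h2
        rw [← h1, ← h2, h]
      have h0 : f.1 x = g.1 x := congrFun hfg ⟨x, hx.symm, hxz.symm⟩
      refine Subtype.ext (funext fun i => ?_)
      by_cases h1 : i = π x
      · rw [h1]; exact hd _ h0
      by_cases h2 : i = π (π x)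
      · rw [h2]; exact hd _ (hd _ h0)
      exact congrFun hfg ⟨i, h1, h2⟩
    have hle := Nat.card_le_card_of_injective res hinj
    rw [Nat.card_fun, Nat.card_fin, Nat.card_eq_fintype_card (α := {i // i ≠ π x ∧ i ≠ π (π x)}),
      Fintype.card_subtype,
      show Finset.univ.filter (fun i => i ≠ π x ∧ i ≠ π (π x)) = ({π x, π (π x)} : Finset (Fin n))ᶜ by
        ext; simp, Finset.card_compl, Finset.card_pair hxy.symm, Fintype.card_fin] at hle
    have hle' := Nat.mul_le_mul_left m hle
    obtain ⟨r, rfl⟩ : ∃ r, n = r + 2 := ⟨n - 2, by omega⟩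
    rw [hF, Nat.add_sub_cancel, pow_succ, pow_succ] at hle'
    have hp := pow_pos hm0 r
    obtain ⟨s, rfl⟩ : ∃ s, m = s + 3 := ⟨m - 3, by omega⟩
    rw [Nat.add_sub_cancel] at hle'
    nlinarith [Nat.mul_pos hp hm0, Nat.mul_le_mul (show 2 ≤ s by omega) (show 5 ≤ s + 3 by omega)]

end Cfsg.Agent.ProdAction
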