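import Cfsg.Agent.ProdAction.Basic

/-!
The data used for `m ∈ {5, 6, 7, 9}` in the maximality of product action wreath products.
-/

set_option autoImplicit false

namespace Cfsg.Agent.ProdAction

open Equiv Equiv.Perm

/-- Two commuting even conjugate `p`-elements `v, v'` on the values, semiregular off the value `a`. -/
structure Param (m : ℕ) where
  p : ℕ
  hp : p.Prime
  e : ℕ
  hpe : ∃ r, e = p ^ r
  a : Fin m
  b : Fin m
  hba : b ≠ a
  v : Perm (Fin m)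
  v' : Perm (Fin m)
  orderOf_v : orderOf v = e
  fix_pow : ∀ i : ℕ, v ^ i ≠ 1 → ∀ x, (v ^ i) x = x ↔ x = a
  conj' : IsConj v v'
  fix' : v' a = a
  comm : Commute v v'
  sign_v : sign v = 1
  odd_cent : Odd m → ∃ c : Perm (Fin m), sign c = -1 ∧ c a = a ∧ Commute c v
  count : (2 * e = m - 1 ∧ ¬ 5 ∣ e) ∨ (e = m - 1 ∧ ¬ 3 ∣ e)
  even_p : p = 2 ↔ 2 ∣ e
  /-- Values in different orbits of `⟨v, v'⟩` are separated. -/
  sep : ∀ x y, x ≠ a → y ≠ a → (∀ i j : ℕ, i < e → j < e → (v ^ i * v' ^ j) x ≠ y) →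
    ∃ i j : ℕ, (v ^ i * v' ^ j) x = x ∧ (v ^ i * v' ^ j) y ≠ y
  /-- Orbit preserving even permutations tell values of one orbit apart. -/
  rigid : ∀ x y, x ≠ a → x ≠ y → (∃ i j : ℕ, (v ^ i * v' ^ j) x = y) →
    ∃ u : Perm (Fin m), sign u = 1 ∧ u a = a ∧ u x = x ∧ u y ≠ y ∧
      ∀ q, ∃ i j : ℕ, (v ^ i * v' ^ j) q = u q

end Cfsg.Agent.ProdAction
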