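import Cfsg.Agent.ProdAction.Basic

/-!
Parity lemmas for the product action.
-/

set_option autoImplicit false

namespace Cfsg.Agent.ProdAction

open Equiv Equiv.Perm

/-- A finite set with a fixed point free involution has an even number of elements. -/
theorem even_card_of_involution {β : Type*} [DecidableEq β] (S : Finset β) (f : β → β)
    (hmem : ∀ a ∈ S, f a ∈ S) (hne : ∀ a ∈ S, f a ≠ a) (hinv : ∀ a ∈ S, f (f a) = a) :
    Even S.card := by
  have h : ∑ _a ∈ S, (1 : ZMod 2) = 0 :=
    Finset.sum_involution (fun a _ => f a) (fun _ _ => by decide) (fun a ha _ => hne a ha)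
      (fun a ha => hmem a ha) (fun a ha => hinv a ha)
  rw [Finset.sum_const, nsmul_one, ZMod.natCast_eq_zero_iff_even] at h
  exact h

/-- A finite set with two commuting involutions without common fixed point has even size. -/
theorem even_card_of_two_involutions {β : Type*} [DecidableEq β] (S : Finset β) (f g : β → β)
    (hf : ∀ a ∈ S, f a ∈ S) (hg : ∀ a ∈ S, g a ∈ S) (hff : ∀ a ∈ S, f (f a) = a)
    (hgg : ∀ a ∈ S, g (g a) = a) (hfg : ∀ a ∈ S, f (g a) = g (f a))
    (hne : ∀ a ∈ S, f a = a → g a ≠ a) : Even S.card := by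
  rw [← Finset.card_filter_add_card_filter_not (s := S) fun a => f a = a]
  refine Even.add (even_card_of_involution _ g ?_ ?_ ?_) (even_card_of_involution _ f ?_ ?_ ?_)
  all_goals intro a ha; rw [Finset.mem_filter] at ha
  · exact Finset.mem_filter.2 ⟨hg a ha.1, by rw [hfg a ha.1, ha.2]⟩
  · exact hne a ha.1 ha.2
  · exact hgg a ha.1
  · refine Finset.mem_filter.2 ⟨hf a ha.1, ?_⟩
    rw [hff a ha.1]
    exact fun h => ha.2 h.symm
  · exact ha.2
  · exact hff a ha.1

/-- A permutation commuting with a Klein four group acting freely on its support is even. -/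
theorem sign_eq_one_of_commute_fpf {α : Type*} [Fintype α] [DecidableEq α] (z u w : Equiv.Perm α)
    (D : Set α) (hu : u * u = 1) (hw : w * w = 1) (huw : Commute u w) (hzu : Commute z u)
    (hzw : Commute z w) (hz : ∀ x, x ∉ D → z x = x) (hD : ∀ x, x ∈ D → u x ∈ D ∧ w x ∈ D)
    (hfpf : ∀ x, x ∈ D → u x ≠ x ∧ w x ≠ x ∧ u x ≠ w x) : Equiv.Perm.sign z = 1 := by
  have hsupp : ∀ x ∈ z.support, x ∈ D := fun x hx => by
    by_contra h; exact mem_support.1 hx (hz x h)
  have huu : ∀ x, u (u x) = x := fun x => Equiv.ext_iff.1 hu x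
  have hww : ∀ x, w (w x) = x := fun x => Equiv.ext_iff.1 hw x
  -- the support has even size
  have hE1 : Even z.support.card := by
    refine even_card_of_involution _ u (fun x hx => ?_) (fun x hx => (hfpf x (hsupp x hx)).1)
      (fun x _ => huu x)
    rw [mem_support] at hx ⊢
    have := Equiv.ext_iff.1 hzu.eq x
    simp only [Perm.mul_apply] at this
    rw [this]
    exact fun h => hx (u.injective h)
  -- the number of cycles is even
  have hconj : ∀ g : Perm α, Commute z g → ∀ c ∈ z.cycleFactorsFinset,
      g * c * g⁻¹ ∈ z.cycleFactorsFinset := by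
    intro g hg c hc
    have h := (mem_cycleFactorsFinset_conj z g c).2 hc
    rwa [show g * z * g⁻¹ = z by rw [hg.symm.eq, mul_inv_cancel_right]] at h
  have hinv : ∀ g : Perm α, g * g = 1 → ∀ c : Perm α, g * (g * c * g⁻¹) * g⁻¹ = c := by
    intro g hg c
    have : g⁻¹ = g := inv_eq_of_mul_eq_one_right hg
    rw [this, ← mul_assoc, ← mul_assoc, hg, one_mul, mul_assoc, hg, mul_one]
  have hE2 : Even z.cycleFactorsFinset.card := by
    refine even_card_of_two_involutions _ (fun c => u * c * u⁻¹) (fun c => w * c * w⁻¹)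
      (hconj u hzu) (hconj w hzw) (fun c _ => hinv u hu c) (fun c _ => hinv w hw c)
      (fun c _ => ?_) ?_
    · show u * (w * c * w⁻¹) * u⁻¹ = w * (u * c * u⁻¹) * w⁻¹
      calc u * (w * c * w⁻¹) * u⁻¹ = (u * w) * c * (u * w)⁻¹ := by group
        _ = (w * u) * c * (w * u)⁻¹ := by rw [huw.eq]
        _ = w * (u * c * u⁻¹) * w⁻¹ := by group
    intro c hc hcu hcw
    have hcu' : Commute u c := mul_inv_eq_iff_eq_mul.1 hcu
    have hcw' : Commute w c := mul_inv_eq_iff_eq_mul.1 hcw
    obtain ⟨hcyc, hcz⟩ := mem_cycleFactorsFinset_iff.1 hc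
    obtain ⟨x, hx⟩ : ∃ x, c x ≠ x := hcyc.imp fun x h => h.1
    have hxD : x ∈ D := hsupp x (mem_cycleFactorsFinset_support_le hc (mem_support.2 hx))
    obtain ⟨h1, h2, h3⟩ := hfpf x hxD
    have key : ∀ g : Perm α, Commute g c → (∀ y, g (g y) = y) → g x ≠ x →
        (c ^ (orderOf c / 2)) x = g x := by
      intro g hg hgg hgx
      have hgm : c (g x) ≠ g x := by
        rw [← Perm.mul_apply, ← hg.eq, Perm.mul_apply]
        exact fun h => hx (g.injective h)
      obtain ⟨i, hi⟩ := hcyc.exists_pow_eq hx hgm
      rw [← pow_mod_orderOf] at hi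
      set i' := i % orderOf c
      have hi' : i' < orderOf c := Nat.mod_lt _ (orderOf_pos c)
      have h2i : (c ^ (i' + i')) x = x := by
        have e := Equiv.ext_iff.1 (hg.pow_right i').eq x
        simp only [Perm.mul_apply, hi] at e
        rw [pow_add, Perm.mul_apply, hi, ← e, hgg]
      have hd : orderOf c ∣ i' + i' :=
        orderOf_dvd_of_pow_eq_one (hcyc.pow_eq_one_iff.2 ⟨x, hx, h2i⟩)
      have hne : i' ≠ 0 := fun h => hgx (by rw [← hi, h, pow_zero]; rfl)
      obtain ⟨q, hq⟩ := hd
      have hq1 : q = 1 := by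
        have : q < 2 := by
          by_contra hq2
          have : orderOf c * 2 ≤ orderOf c * q := Nat.mul_le_mul_left _ (by omega)
          omega
        interval_cases q
        · omega
        · rfl
      subst hq1
      rwa [show orderOf c / 2 = i' by omega]
    exact h3 ((key u hcu' huu h1).symm.trans (key w hcw' hww h2))
  have hcard : Multiset.card z.cycleType = z.cycleFactorsFinset.card := by
    rw [cycleType_def, Multiset.card_map]; rfl
  rw [sign_of_cycleType, sum_cycleType, hcard]
  exact (hE1.add hE2).neg_one_pow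

/-- An involution moving a multiple of four points is even. -/
theorem sign_eq_one_of_sq_eq_one {α : Type*} [Fintype α] [DecidableEq α] (σ : Perm α)
    (h2 : σ ^ 2 = 1) (h4 : 4 ∣ σ.support.card) : sign σ = 1 := by
  have hall : ∀ n ∈ σ.cycleType, n = 2 := fun n hn => by
    have h1 := two_le_of_mem_cycleType hn
    have := Nat.le_of_dvd (by norm_num) ((dvd_of_mem_cycleType hn).trans (orderOf_dvd_of_pow_eq_one h2))
    omega
  have hsum : σ.cycleType.sum = Multiset.card σ.cycleType * 2 := by
    conv_lhs => rw [Multiset.eq_replicate_card.2 hall]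
    simp
  rw [sum_cycleType] at hsum
  rw [sign_of_cycleType, sum_cycleType]
  refine Even.neg_one_pow ?_
  obtain ⟨q, hq⟩ := h4
  exact ⟨2 * q + q, by omega⟩

variable {m k : ℕ}

theorem act_eq_mul (π : Perm (Fin k)) (τ : Fin k → Perm (Fin m)) :
    act π τ = act 1 τ * act π 1 := by
  rw [act_mul, one_mul]
  congr 1

theorem four_dvd_of_even (hm : Even m) (hk : 2 ≤ k) (h : ¬(k = 2 ∧ m % 4 = 2)) :
    4 ∣ m ^ (k - 1) := by
  obtain ⟨r, rfl⟩ := hm
  by_cases hk2 : k = 2
  · subst hk2
    simp only [true_and] at h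
    rw [show (2 : ℕ) - 1 = 1 from rfl, pow_one]
    omega
  · refine Dvd.dvd.trans ⟨r ^ 2, by ring⟩ (pow_dvd_pow _ (show 2 ≤ k - 1 by omega))

theorem sign_act_swap (hm : Even m) (hk : 2 ≤ k) (h : ¬(k = 2 ∧ m % 4 = 2)) {i j : Fin k}
    (hij : i ≠ j) : sign (act (Equiv.swap i j) (1 : Fin k → Perm (Fin m))) = 1 := by
  classical
  set σ := act (Equiv.swap i j) (1 : Fin k → Perm (Fin m))
  have hσ : ∀ (f : Pt m k) l, σ f l = f (Equiv.swap i j l) := fun f l => by
    simp [σ, Equiv.symm_swap]
  refine sign_eq_one_of_sq_eq_one σ ?_ ?_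
  · ext f l
    simp [sq, hσ]
  · have hfix : ((Finset.univ : Finset (Pt m k)).filter fun f => σ f = f).card = m ^ (k - 1) := by
      rw [← Fintype.card_subtype]
      have e : {f : Pt m k // σ f = f} ≃ ({l : Fin k // l ≠ j} → Fin m) :=
        { toFun := fun f l => f.1 l.1
          invFun := fun g => ⟨fun l => if hl : l ≠ j then g ⟨l, hl⟩ else g ⟨i, hij⟩, by
            funext l
            rw [hσ]
            rcases eq_or_ne l i with rfl | hli
            · simp [hij]
            rcases eq_or_ne l j with rfl | hlj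
            · simp [hij]
            · rw [Equiv.swap_apply_of_ne_of_ne hli hlj]⟩
          left_inv := fun f => by
            refine Subtype.ext (funext fun l => ?_)
            by_cases hl : l = j
            · subst hl
              have := congrFun f.2 l
              rw [hσ, Equiv.swap_apply_right] at this
              simp [this]
            · simp [hl]
          right_inv := fun g => funext fun l => by simp [l.2] }
      rw [Fintype.card_congr e]
      simp
    have hs : σ.support.card + m ^ (k - 1) = m ^ k := by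
      rw [← hfix, Perm.support, add_comm,
        Finset.card_filter_add_card_filter_not]
      simp
    have h4 := four_dvd_of_even hm hk h
    have h4' : 4 ∣ m ^ k := h4.trans (pow_dvd_pow _ (by omega))
    omega

/-- For even `m`, apart from `k = 2, m ≡ 2 (mod 4)`, all of `W` is even. -/
theorem W_le_alternating (hm : Even m) (hk : 2 ≤ k) (h : ¬(k = 2 ∧ m % 4 = 2)) :
    W m k ≤ alternatingGroup (Pt m k) := by
  intro σ hσ
  obtain ⟨π, τ, rfl⟩ := mem_W_iff.1 hσ
  rw [mem_alternatingGroup, act_eq_mul, map_mul]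
  have h1 : sign (act 1 τ) = 1 := by
    rw [sign_act_one]
    refine Finset.prod_eq_one fun i _ => ?_
    rw [sign_coord, Int.units_pow_eq_pow_mod_two,
      Nat.even_iff.1 (Nat.even_pow.2 ⟨hm, by omega⟩), pow_zero]
  rw [h1, one_mul]
  clear h1 hσ
  induction π using swap_induction_on with
  | one => rw [act_one, map_one]
  | swap_mul f x y hxy ih =>
    have : act (Equiv.swap x y * f) (1 : Fin k → Perm (Fin m))
        = act (Equiv.swap x y) 1 * act f 1 := by
      rw [act_mul]; congr 1
    rw [this, map_mul, sign_act_swap hm hk h hxy, ih, one_mul]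

/-- There is an even permutation outside `W`. -/
theorem exists_alternating_not_mem_W (hm : 5 ≤ m) (hk : 2 ≤ k) :
    ∃ σ ∈ alternatingGroup (Pt m k), σ ∉ W m k := by
  classical
  let i₀ : Fin k := ⟨0, by omega⟩
  let i₁ : Fin k := ⟨1, by omega⟩
  have hi : i₁ ≠ i₀ := by simp [i₀, i₁, Fin.ext_iff]
  let z : Fin m := ⟨0, by omega⟩
  let o : Fin m := ⟨1, by omega⟩
  let a : Pt m k := fun _ => z
  let b : Pt m k := Function.update a i₀ o
  let c : Pt m k := Function.update a i₁ o
  have hzo : o ≠ z := by simp [z, o, Fin.ext_iff]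
  have hab : a ≠ b := fun e => hzo (by simpa [a, b] using (congrFun e i₀).symm)
  have hac : a ≠ c := fun e => hzo (by simpa [a, c] using (congrFun e i₁).symm)
  have hbc : b ≠ c := fun e => hzo (by
    have := congrFun e i₀
    simpa [a, b, c, Function.update_of_ne hi.symm] using this)
  refine ⟨Equiv.swap a b * Equiv.swap b c, ?_, fun hW => ?_⟩
  · simp [mem_alternatingGroup, sign_swap hab, sign_swap hbc]
  · obtain ⟨π, τ, hπ⟩ := hW
    have ha : (Equiv.swap a b * Equiv.swap b c) a = b := by
      simp [Equiv.swap_apply_of_ne_of_ne hab hac]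
    have hb : (Equiv.swap a b * Equiv.swap b c) b = c := by
      simp [Equiv.swap_apply_of_ne_of_ne hac.symm hbc.symm]
    have key : ∀ i, b i ≠ c i → π.symm i = i₀ := by
      intro i hne
      by_contra hp
      apply hne
      rw [← congrFun ha i, ← congrFun hb i, hπ, hπ]
      simp [b, Function.update_of_ne hp]
    have e0 := key i₀ (by simpa [b, c, a, Function.update_of_ne hi.symm] using hzo)
    have e1 := key i₁ (by simpa [b, c, a, Function.update_of_ne hi] using hzo.symm)
    exact hi (π.symm.injective (e1.trans e0.symm))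

end Cfsg.Agent.ProdAction
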