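import Cfsg.Agent.ProdAct.Descent

/-!
Doubly transitive groups of degree `36` containing an involution moving `12` points.
-/

set_option autoImplicit false

namespace Cfsg.Agent.ProdAction

open Equiv Finset

variable {α : Type*} [Fintype α] [DecidableEq α]

/-- The number of points of `U` which `g` maps back into `U`. -/
def meetCount (U : Finset α) (g : Perm α) : ℕ := (U.filter fun z => g z ∈ U).card

/-- The number of points of `U` with image in `U` whose image under `x` leaves `U`. -/
def leaveCount (x : Perm α) (g : Perm α) : ℕ :=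
  (x.support.filter fun z => g z ∈ x.support ∧ g (x z) ∉ x.support).card

/-- First and second moments over a doubly transitive group. -/
theorem exists_moments {G : Subgroup (Perm α)} [Fintype G]
    (h2 : ∀ a a' b b' : α, a ≠ a' → b ≠ b' → ∃ h : G, h • a = b ∧ h • a' = b')
    (x : Perm α) (hx : x ≠ 1) :
    ∃ M : ℤ, 0 < M ∧
      (Fintype.card G : ℤ) = (Fintype.card α : ℤ) * ((Fintype.card α : ℤ) - 1) * M ∧
      ∑ g : G, (meetCount x.support g : ℤ)
        = (x.support.card : ℤ) ^ 2 * ((Fintype.card α : ℤ) - 1) * M ∧
      ∑ g : G, (meetCount x.support g : ℤ) * (meetCount x.support g : ℤ)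
        = (x.support.card : ℤ) ^ 2 * ((Fintype.card α : ℤ) - 1) * M
          + ((x.support.card : ℤ) * x.support.card - x.support.card) ^ 2 * M ∧
      ∑ g : G, (leaveCount x g : ℤ)
        = (x.support.card : ℤ) ^ 2 * ((Fintype.card α : ℤ) - x.support.card) * M := by
  classical
  set U := x.support with hU
  obtain ⟨u, hu⟩ : U.Nonempty := by rw [nonempty_iff_ne_empty]; simpa [hU] using hx
  have hxu : x u ≠ u := Perm.mem_support.1 hu
  obtain ⟨M, hMpos, hM⟩ := ProdAct.exists_pair_count h2 hxu.symm
  set s := U.card with hs
  set N := Fintype.card α with hN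
  have hN1 : 1 ≤ N := Fintype.card_pos_iff.2 ⟨u⟩
  have hsN : s ≤ N := card_le_univ _
  have hss : s ≤ s * s := Nat.le_mul_self s
  have hsmul : ∀ (g : G) (z : α), g • z = (g : Perm α) z := fun _ _ => rfl
  refine ⟨M, by exact_mod_cast hMpos, ?_, ?_, ?_, ?_⟩
  · have := ProdAct.count_pair_into hM hxu.symm (univ : Finset α) (univ : Finset α)
    simp only [mem_univ, and_self, filter_true, card_univ] at this
    rw [this, card_filter, sum_product, sum_congr rfl (g := fun _ => N - 1)]
    · simp only [sum_const, card_univ, smul_eq_mul, ← hN]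
      push_cast [Nat.cast_sub hN1]; ring
    · intro b _
      rw [← card_filter]
      simp [filter_ne, hN]
  · have h : ∑ g : G, meetCount U g = s * (s * (N - 1) * M) := by
      simp only [meetCount, card_filter]
      rw [sum_comm, sum_congr rfl (g := fun _ => s * (N - 1) * M)]
      · simp [hs]
      · intro a ha
        rw [← card_filter]
        have hax : a ≠ x a := (Perm.mem_support.1 ha).symm
        have := ProdAct.count_pair_into hM hax U (univ : Finset α)
        simp only [mem_univ, and_true, hsmul] at this
        rw [this]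
        congr 1
        rw [card_filter, sum_product, sum_congr rfl (g := fun _ => N - 1)]
        · simp [hs]
        · intro b _
          rw [← card_filter]
          simp [filter_ne, hN]
    rw [← Nat.cast_sum, h]; push_cast [Nat.cast_sub hN1]; ring
  · have h : ∑ g : G, meetCount U g * meetCount U g
        = s * (s * (N - 1) * M) + (s * s - s) * ((s * s - s) * M) := by
      have e : ∀ g : G, meetCount U g * meetCount U g
          = meetCount U g + (U.offDiag.filter fun q => (g : Perm α) q.1 ∈ U ∧ (g : Perm α) q.2 ∈ U).card := by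
        intro g
        have e2 : (U.filter fun z => (g : Perm α) z ∈ U).offDiag
            = U.offDiag.filter fun q => (g : Perm α) q.1 ∈ U ∧ (g : Perm α) q.2 ∈ U := by
          ext q
          simp only [mem_offDiag, mem_filter]
          tauto
        rw [← e2, offDiag_card]
        have := Nat.le_mul_self (meetCount U g)
        simp only [meetCount] at this ⊢
        omega
      simp only [e, sum_add_distrib]
      congr 1
      · simp only [meetCount, card_filter]
        rw [sum_comm, sum_congr rfl (g := fun _ => s * (N - 1) * M)]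
        · simp [hs]
        · intro a ha
          rw [← card_filter]
          have hax : a ≠ x a := (Perm.mem_support.1 ha).symm
          have := ProdAct.count_pair_into hM hax U (univ : Finset α)
          simp only [mem_univ, and_true, hsmul] at this
          rw [this]
          congr 1
          rw [card_filter, sum_product, sum_congr rfl (g := fun _ => N - 1)]
          · simp [hs]
          · intro b _
            rw [← card_filter]
            simp [filter_ne, hN]
      · simp only [card_filter]
        rw [sum_comm, sum_congr rfl (g := fun _ => (s * s - s) * M)]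
        · simp [offDiag_card, hs]
        · intro q hq
          rw [← card_filter]
          have := ProdAct.count_pair_into hM (mem_offDiag.1 hq).2.2 U U
          simp only [hsmul] at this
          rw [this]
          congr 1
          rw [hs, ← offDiag_card]
          congr 1
          ext p
          simp [mem_offDiag, and_assoc]
    have h' := congrArg (fun n : ℕ => (n : ℤ)) h
    push_cast [Nat.cast_sub hN1, Nat.cast_sub hss] at h'
    rw [h']; ring
  · have h : ∑ g : G, leaveCount x g = s * (s * (N - s) * M) := by
      simp only [leaveCount, card_filter]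
      rw [sum_comm, sum_congr rfl (g := fun _ => s * (N - s) * M)]
      · simp [hs, hU]
      · intro a ha
        rw [← card_filter]
        have := ProdAct.count_pair_into hM (Perm.mem_support.1 ha).symm U Uᶜ
        simp only [hsmul, mem_compl] at this
        rw [this]
        congr 1
        rw [filter_true_of_mem]
        · rw [card_product, card_compl]
        · intro q hq e
          simp only [mem_product, mem_compl] at hq
          exact hq.2 (e ▸ hq.1)
    rw [← Nat.cast_sum, h]; push_cast [Nat.cast_sub hsN]; ring

/-- The support of the conjugate `g⁻¹ x g`. -/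
theorem support_inter_conj (x g : Perm α) :
    x.support ∩ (g⁻¹ * x * g).support = x.support.filter fun z => g z ∈ x.support := by
  ext z
  simp [Equiv.symm_apply_eq]

theorem commutator_ne_one_of_leave (x g : Perm α) (hA : 0 < leaveCount x g) :
    x * (g⁻¹ * x * g) * x⁻¹ * (g⁻¹ * x * g)⁻¹ ≠ 1 := by
  intro e
  set y := g⁻¹ * x * g with hy
  have hc : x * y = y * x := by rwa [mul_inv_eq_one, mul_inv_eq_iff_eq_mul] at e
  obtain ⟨z, hz⟩ := card_pos.1 hA
  simp only [mem_filter] at hz
  obtain ⟨hz1, hz2, hz3⟩ := hz
  have hyx : y (x z) = x z := by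
    simp only [hy, Perm.mul_apply, Perm.notMem_support.1 hz3]
    simp
  have hyz : y z ≠ z := by
    rw [← Perm.mem_support]
    have : z ∈ x.support ∩ y.support := by
      rw [hy, support_inter_conj]; exact mem_filter.2 ⟨hz1, hz2⟩
    exact (mem_inter.1 this).2
  have h4 : x (y z) = y (x z) := by rw [← Perm.mul_apply, hc, Perm.mul_apply]
  rw [hyx] at h4
  exact hyz (x.injective h4)

/-- A commutator moves only the common points and their exits. -/
theorem card_support_commutator_le_add (x y : Perm α) :
    (x * y * x⁻¹ * y⁻¹).support.card ≤ (x.support ∩ y.support).card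
      + ((x.support ∩ y.support).filter fun z => x z ∉ y.support).card
      + ((x.support ∩ y.support).filter fun z => y z ∉ x.support).card := by
  refine le_trans (card_le_card (t := (x.support ∩ y.support) ∪
      ((x.support ∩ y.support).filter fun z => x z ∉ y.support).image x ∪
      ((x.support ∩ y.support).filter fun z => y z ∉ x.support).image y) ?_) ?_
  · intro z hz
    have h := ProdAct.support_commutator_subset x y hz
    simp only [mem_union, mem_image, mem_inter, mem_filter] at h ⊢
    rcases h with (h | ⟨w, hw, rfl⟩) | ⟨w, hw, rfl⟩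
    · exact Or.inl (Or.inl h)
    · by_cases hc : x w ∈ y.support
      · exact Or.inl (Or.inl ⟨Perm.apply_mem_support.2 hw.1, hc⟩)
      · exact Or.inl (Or.inr ⟨w, ⟨hw, hc⟩, rfl⟩)
    · by_cases hc : y w ∈ x.support
      · exact Or.inl (Or.inl ⟨hc, Perm.apply_mem_support.2 hw.2⟩)
      · exact Or.inr ⟨w, ⟨hw, hc⟩, rfl⟩
  · refine (card_union_le _ _).trans (Nat.add_le_add ((card_union_le _ _).trans
      (Nat.add_le_add_left card_image_le _)) card_image_le)

/-- The key lemma for two involutions moving twelve points each. -/
theorem meet_bound (x y : Perm α) (hxx : ∀ z, x (x z) = z) (hyy : ∀ z, y (y z) = z)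
    (hxs : x.support.card = 12) (hys : y.support.card = 12)
    (hz : ((x * y) ^ 3) ≠ 1 → 12 ≤ ((x * y) ^ 3).support.card)
    (hc : x * y * x⁻¹ * y⁻¹ ≠ 1 → 12 ≤ (x * y * x⁻¹ * y⁻¹).support.card) :
    9 * ((((x.support ∩ y.support).filter fun z => x z ∉ y.support).card : ℤ)
        + ((x.support ∩ y.support).filter fun z => y z ∉ x.support).card)
      ≤ 8 * (((x.support ∩ y.support).card : ℤ) - 2) ^ 2 := by
  set S := x.support ∩ y.support with hS
  set PA := S.filter fun z => x z ∉ y.support with hPA
  set PB := S.filter fun z => y z ∉ x.support with hPB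
  have hA : PA.card ≤ S.card := card_filter_le _ _
  have hB : PB.card ≤ S.card := card_filter_le _ _
  have hUV : (x.support ∪ y.support).card + S.card = 24 := by
    rw [hS, card_union_add_card_inter, hxs, hys]
  by_cases h0 : PA.card + PB.card = 0
  · have : (0 : ℤ) ≤ 8 * ((S.card : ℤ) - 2) ^ 2 := by positivity
    have h0' : (PA.card : ℤ) + PB.card = 0 := by exact_mod_cast h0
    linarith
  have hne : x * y * x⁻¹ * y⁻¹ ≠ 1 := by
    intro e
    have hcm : x * y = y * x := by rwa [mul_inv_eq_one, mul_inv_eq_iff_eq_mul] at e
    have hcm' : ∀ z, x (y z) = y (x z) := fun z => Equiv.ext_iff.1 hcm z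
    apply h0
    have h1 : PA = ∅ := filter_eq_empty_iff.2 fun z hz1 hn => by
      have hyz := Perm.mem_support.1 (mem_inter.1 hz1).2
      have := Perm.notMem_support.1 hn
      rw [← hcm'] at this
      exact hyz (x.injective this)
    have h2 : PB = ∅ := filter_eq_empty_iff.2 fun z hz1 hn => by
      have hxz := Perm.mem_support.1 (mem_inter.1 hz1).1
      have := Perm.notMem_support.1 hn
      rw [hcm'] at this
      exact hxz (y.injective this)
    simp [h1, h2]
  have h12 : 12 ≤ S.card + PA.card + PB.card :=
    (hc hne).trans (card_support_commutator_le_add x y)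
  -- three-point paths
  have hpath : ((x * y) ^ 3).support.card + 3 * (PA ∩ PB).card + S.card ≤ 24 := by
    set E := PA ∩ PB
    have hE : ∀ p ∈ E, (p ∈ x.support ∧ p ∈ y.support) ∧ x p ∉ y.support ∧ y p ∉ x.support := by
      intro p hp
      simp only [E, hPA, hPB, hS, mem_inter, mem_filter] at hp
      exact ⟨hp.1.1, hp.1.2, hp.2.2⟩
    have hfix : ∀ p ∈ E, ((x * y) ^ 3) p = p ∧ ((x * y) ^ 3) (x p) = x p ∧
        ((x * y) ^ 3) (y p) = y p := by
      intro p hp
      obtain ⟨-, h1, h2⟩ := hE p hp
      have e1 : (x * y) p = y p := by rw [Perm.mul_apply]; exact Perm.notMem_support.1 h2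
      have e2 : (x * y) (y p) = x p := by rw [Perm.mul_apply, hyy]
      have e3 : (x * y) (x p) = p := by rw [Perm.mul_apply, Perm.notMem_support.1 h1, hxx]
      simp only [pow_succ, pow_zero, one_mul]
      refine ⟨?_, ?_, ?_⟩
      · rw [Perm.mul_apply, e1, Perm.mul_apply, e2, e3]
      · rw [Perm.mul_apply, e3, Perm.mul_apply, e1, e2]
      · rw [Perm.mul_apply, e2, Perm.mul_apply, e3, e1]
    have hd1 : Disjoint E (E.image x) := by
      rw [disjoint_left]
      rintro _ hq hq'
      obtain ⟨p, hp, rfl⟩ := mem_image.1 hq'
      exact (hE p hp).2.1 (hE _ hq).1.2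
    have hd2 : Disjoint (E ∪ E.image x) (E.image y) := by
      rw [disjoint_left]
      rintro _ hq hq'
      obtain ⟨p, hp, rfl⟩ := mem_image.1 hq'
      rcases mem_union.1 hq with h | h
      · exact (hE p hp).2.2 (hE _ h).1.1
      · obtain ⟨r, hr, e⟩ := mem_image.1 h
        exact (hE p hp).2.2 (e ▸ Perm.apply_mem_support.2 (hE r hr).1.1)
    have hsub : ((x * y) ^ 3).support ⊆
        (x.support ∪ y.support) \ (E ∪ E.image x ∪ E.image y) := by
      intro q hq
      rw [Perm.mem_support] at hq
      refine mem_sdiff.2 ⟨?_, fun h => ?_⟩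
      · by_contra h
        simp only [mem_union, not_or, Perm.notMem_support] at h
        apply hq
        simp [pow_succ, Perm.mul_apply, h.1, h.2]
      · rcases mem_union.1 h with h | h
        · rcases mem_union.1 h with h | h
          · exact hq (hfix q h).1
          · obtain ⟨p, hp, rfl⟩ := mem_image.1 h
            exact hq (hfix p hp).2.1
        · obtain ⟨p, hp, rfl⟩ := mem_image.1 h
          exact hq (hfix p hp).2.2
    have hsub2 : E ∪ E.image x ∪ E.image y ⊆ x.support ∪ y.support := by
      intro q hq
      simp only [mem_union, mem_image] at hq ⊢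
      rcases hq with (h | ⟨p, hp, rfl⟩) | ⟨p, hp, rfl⟩
      · exact Or.inl (hE q h).1.1
      · exact Or.inl (Perm.apply_mem_support.2 (hE p hp).1.1)
      · exact Or.inr (Perm.apply_mem_support.2 (hE p hp).1.2)
    have h1 := card_le_card hsub
    rw [card_sdiff_of_subset hsub2] at h1
    have h2 : (E ∪ E.image x ∪ E.image y).card = 3 * E.card := by
      rw [card_union_of_disjoint hd2, card_union_of_disjoint hd1,
        card_image_of_injective _ x.injective, card_image_of_injective _ y.injective]
      omega
    have h3 := card_le_card hsub2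
    omega
  have he3 : PA.card + PB.card ≤ (PA ∩ PB).card + S.card := by
    rw [← card_union_add_card_inter, add_comm]
    exact Nat.add_le_add_left (card_le_card
      (union_subset (filter_subset _ _) (filter_subset _ _))) _
  have hAU : PA.card + S.card ≤ 12 := by
    have hsub : PA.image x ⊆ x.support \ y.support := by
      intro q hq
      obtain ⟨p, hp, rfl⟩ := mem_image.1 hq
      rw [hPA, mem_filter, hS, mem_inter] at hp
      exact mem_sdiff.2 ⟨Perm.apply_mem_support.2 hp.1.1, hp.2⟩
    have h := card_le_card hsub
    rw [card_image_of_injective _ x.injective] at h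
    have := card_sdiff_add_card_inter x.support y.support
    rw [← hS, hxs] at this
    omega
  have hBU : PB.card + S.card ≤ 12 := by
    have hsub : PB.image y ⊆ y.support \ x.support := by
      intro q hq
      obtain ⟨p, hp, rfl⟩ := mem_image.1 hq
      rw [hPB, mem_filter, hS, mem_inter] at hp
      exact mem_sdiff.2 ⟨Perm.apply_mem_support.2 hp.1.2, hp.2⟩
    have h := card_le_card hsub
    rw [card_image_of_injective _ y.injective] at h
    have := card_sdiff_add_card_inter y.support x.support
    rw [inter_comm, ← hS, hys] at this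
    omega
  -- if the cube is trivial, `x` maps the private points into the common ones
  have hone : (x * y) ^ 3 = 1 → 12 ≤ 2 * S.card := by
    intro h1
    have hsub : x.support \ y.support ⊆ S.image x := by
      intro q hq
      obtain ⟨hq1, hq2⟩ := mem_sdiff.1 hq
      refine mem_image.2 ⟨x q, ?_, hxx q⟩
      rw [hS, mem_inter]
      refine ⟨Perm.apply_mem_support.2 hq1, ?_⟩
      by_contra hxq
      have e1 : (x * y) q = x q := by rw [Perm.mul_apply, Perm.notMem_support.1 hq2]
      have e2 : (x * y) (x q) = q := by rw [Perm.mul_apply, Perm.notMem_support.1 hxq, hxx]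
      have : ((x * y) ^ 3) q = x q := by
        simp only [pow_succ, pow_zero, one_mul]
        rw [Perm.mul_apply, e1, Perm.mul_apply, e2, e1]
      rw [h1, Perm.one_apply] at this
      exact Perm.mem_support.1 hq1 this.symm
    have h := (card_le_card hsub).trans card_image_le
    have := card_sdiff_add_card_inter x.support y.support
    rw [← hS, hxs] at this
    omega
  have hzz := hz
  set a := PA.card
  set b := PB.card
  set i := S.card
  by_cases h1 : (x * y) ^ 3 = 1
  · have := hone h1
    have hi : (6 : ℤ) ≤ i := by omega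
    have : (a : ℤ) + b ≤ 2 * (12 - i) := by omega
    nlinarith
  · have := hzz h1
    have hi4 : 4 ≤ i := by omega
    rcases Nat.lt_or_ge i 6 with h | h
    · interval_cases i <;> omega
    · have hi : (6 : ℤ) ≤ i := by omega
      have : (a : ℤ) + b ≤ 2 * (12 - i) := by omega
      nlinarith

/-- An invariant set without fixed points of a permutation of prime order. -/
theorem prime_dvd_card_of_invariant {p : ℕ} [Fact p.Prime] {x : Perm α} (hx : x ^ p = 1)
    (S : Finset α) (hS : ∀ z ∈ S, x z ∈ S) (hne : ∀ z ∈ S, x z ≠ z) : p ∣ S.card := by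
  have hiff : ∀ z, x z ∈ S ↔ z ∈ S := by
    intro z
    refine ⟨fun h => ?_, hS z⟩
    have hmap : S.image x = S := by
      refine eq_of_subset_of_card_le (fun q hq => ?_) (card_image_of_injective _ x.injective).ge
      obtain ⟨w, hw, rfl⟩ := mem_image.1 hq
      exact hS w hw
    rw [← hmap] at h
    obtain ⟨w, hw, hw'⟩ := mem_image.1 h
    exact x.injective hw' ▸ hw
  let σ : Perm {z // z ∈ S} := x.subtypePerm hiff
  have hpow : σ ^ p ^ 1 = 1 := by
    rw [pow_one]
    show (x.subtypePerm hiff) ^ p = 1
    rw [Perm.subtypePerm_pow]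
    ext z
    simp [hx]
  have hsup : σ.supportᶜ = ∅ := by
    refine eq_empty_of_forall_notMem fun z hz => ?_
    rw [mem_compl, Perm.mem_support, not_not] at hz
    exact hne z z.2 (congrArg Subtype.val hz)
  have := Perm.card_compl_support_modEq hpow
  rw [hsup, card_empty, Fintype.card_coe] at this
  exact Nat.modEq_zero_iff_dvd.1 this.symm

/-- A doubly transitive group of degree `36` with an involution moving twelve points contains the
alternating group. -/
theorem alt_of_thirty_six {G : Subgroup (Equiv.Perm α)} (hN : Fintype.card α = 36)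
    (hG : MulAction.IsMultiplyPretransitive G α 2) {t : Equiv.Perm α} (ht : t ∈ G)
    (ht2 : orderOf t = 2) (hts : t.support.card = 12) : alternatingGroup α ≤ G := by
  classical
  have h2 : ∀ a a' b b' : α, a ≠ a' → b ≠ b' → ∃ h : G, h • a = b ∧ h • a' = b' :=
    fun _ _ _ _ ha hb => MulAction.is_two_pretransitive_iff.1 hG ha hb
  have ht1 : t ≠ 1 := fun h => by rw [h, orderOf_one] at ht2; omega
  -- a non-trivial element of least support
  let T : Set ℕ := {n | ∃ w ∈ G, w ≠ 1 ∧ w.support.card = n}
  have hT : T.Nonempty := ⟨_, t, ht, ht1, rfl⟩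
  set s := sInf T
  have hmin : ∀ w ∈ G, w ≠ 1 → s ≤ w.support.card := fun w hw hw1 =>
    Nat.sInf_le ⟨w, hw, hw1, rfl⟩
  have hs12 : s ≤ 12 := hts ▸ hmin t ht ht1
  obtain ⟨x, hxG, hx1, hxs, p, hp, hxp⟩ :
      ∃ x ∈ G, x ≠ 1 ∧ x.support.card = s ∧ ∃ p, p.Prime ∧ orderOf x = p := by
    obtain ⟨w, hw, hw1, hws⟩ := Nat.sInf_mem hT
    obtain ⟨p, hp, hpd⟩ := Nat.exists_prime_and_dvd
      (n := orderOf w) (fun h => hw1 (orderOf_eq_one_iff.1 h))
    set x := w ^ (orderOf w / p)
    have hox : orderOf x = p := orderOf_pow_orderOf_div (orderOf_pos w).ne' hpd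
    have hx1 : x ≠ 1 := fun h => by rw [h, orderOf_one] at hox; exact hp.one_lt.ne hox
    refine ⟨x, G.pow_mem hw _, hx1, le_antisymm ?_ (hmin x (G.pow_mem hw _) hx1), p, hp, hox⟩
    exact (card_le_card (Perm.support_pow_le w _)).trans hws.le
  have hs2 : 2 ≤ s := hxs ▸ Perm.two_le_card_support_of_ne_one hx1
  haveI : Fact p.Prime := ⟨hp⟩
  have hxpow : x ^ p = 1 := hxp ▸ pow_orderOf_eq_one x
  have hps : p ∣ s := hxs ▸ prime_dvd_card_of_invariant hxpow _
    (fun z hz => Perm.apply_mem_support.2 hz) (fun z hz => Perm.mem_support.1 hz)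
  let I : G → ℕ := fun g => meetCount x.support g
  let A : G → ℕ := fun g => leaveCount x g
  have hyG : ∀ g : G, (g : Perm α)⁻¹ * x * g ∈ G := fun g =>
    G.mul_mem (G.mul_mem (G.inv_mem g.2) hxG) g.2
  have hcom : ∀ g : G, x * ((g : Perm α)⁻¹ * x * g) * x⁻¹ * ((g : Perm α)⁻¹ * x * g)⁻¹ ∈ G :=
    fun g => G.mul_mem (G.mul_mem (G.mul_mem hxG (hyG g)) (G.inv_mem hxG)) (G.inv_mem (hyG g))
  -- a meeting in one point gives a three-cycle
  by_cases hone : ∃ g : G, I g = 1
  · obtain ⟨g, hg⟩ := hone
    obtain ⟨a, ha⟩ := card_eq_one.1 hg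
    have hq : x.support ∩ ((g : Perm α)⁻¹ * x * g).support = {a} := by
      rw [support_inter_conj, ha]
    exact Perm.alternatingGroup_le_of_isPreprimitive_of_isThreeCycle_mem
      (MulAction.isPreprimitive_of_is_two_pretransitive hG)
      (PrimDeg.isThreeCycle_commutator_of_supports_meet_once _ _ a hq) (hcom g)
  simp only [not_exists] at hone
  exfalso
  obtain ⟨M, hM, hcardG, hI, hII, hA⟩ := exists_moments h2 x hx1
  rw [hN, hxs] at hI hII hA
  rw [hN] at hcardG
  push_cast at hcardG hI hII hA
  have hquad : ∀ a b c : ℤ, ∑ g : G, (a * ((I g : ℤ) * I g) + b * (I g : ℤ) + c)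
      = a * ((s : ℤ) ^ 2 * 35 * M + ((s : ℤ) * s - s) ^ 2 * M) + b * ((s : ℤ) ^ 2 * 35 * M)
        + c * (1260 * M) := by
    intro a b c
    simp only [sum_add_distrib, ← mul_sum, sum_const, nsmul_eq_mul, card_univ, I, hI, hII, hcardG]
    ring
  have hIA : ∀ g : G, A g ≤ I g := fun g => card_le_card fun z hz => by
    simp only [mem_filter] at hz ⊢; exact ⟨hz.1, hz.2.1⟩
  have hthree : ∀ g : G, 0 < A g → s ≤ 3 * I g := fun g hg => by
    refine (hmin _ (hcom g) (commutator_ne_one_of_leave x g hg)).trans
      ((ProdAct.card_support_commutator_le _ _).trans ?_)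
    rw [support_inter_conj]
    rfl
  -- meeting sets of size below a third of the support consist of cycles of `x`
  have hsmall : ∀ g : G, 3 * I g < s → p ∣ I g := by
    intro g hg
    show p ∣ (x.support.filter fun z => (g : Perm α) z ∈ x.support).card
    refine prime_dvd_card_of_invariant hxpow _ (fun z hz => ?_)
      (fun z hz => Perm.mem_support.1 (mem_filter.1 hz).1)
    refine mem_filter.2 ⟨Perm.apply_mem_support.2 (mem_filter.1 hz).1, ?_⟩
    by_contra hn
    have : 0 < A g := card_pos.2 ⟨z, mem_filter.2 ⟨(mem_filter.1 hz).1, (mem_filter.1 hz).2, hn⟩⟩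
    have := hthree g this
    omega
  rcases (by omega : s ≤ 6 ∨ s = 7 ∨ s = 8 ∨ s = 10 ∨ s = 9 ∨ s = 11 ∨ s = 12) with
    h | h | h | h | h | h | h
  · -- the average of `I (I - 2)` is negative
    have key : ∀ g : G, 0 ≤ 1 * ((I g : ℤ) * I g) + (-2) * (I g : ℤ) + 0 := fun g => by
      have : I g = 0 ∨ 2 ≤ I g := by have := hone g; omega
      rcases this with e | e
      · simp [e]
      · have : (2 : ℤ) ≤ I g := by exact_mod_cast e
        nlinarith
    have := sum_nonneg fun g (_ : g ∈ (univ : Finset G)) => key g
    rw [hquad] at this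
    interval_cases s <;> norm_num at this <;> nlinarith
  · have key : ∀ g : G, (4 : ℤ) * A g ≤ 3 * ((I g : ℤ) * I g) + (-6) * (I g : ℤ) + 3 := fun g => by
      rcases Nat.eq_zero_or_pos (A g) with e | e
      · rw [e]; push_cast; nlinarith [sq_nonneg ((I g : ℤ) - 1)]
      · have h1 : (3 : ℤ) ≤ I g := by have := hthree g e; omega
        have h2 : (A g : ℤ) ≤ I g := by exact_mod_cast hIA g
        nlinarith
    have := sum_le_sum fun g (_ : g ∈ (univ : Finset G)) => key g
    rw [hquad, ← mul_sum] at this
    simp only [A, hA, h] at this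
    norm_num at this
    nlinarith
  · have key : ∀ g : G, (4 : ℤ) * A g ≤ 3 * ((I g : ℤ) * I g) + (-6) * (I g : ℤ) + 3 := fun g => by
      rcases Nat.eq_zero_or_pos (A g) with e | e
      · rw [e]; push_cast; nlinarith [sq_nonneg ((I g : ℤ) - 1)]
      · have h1 : (3 : ℤ) ≤ I g := by have := hthree g e; omega
        have h2 : (A g : ℤ) ≤ I g := by exact_mod_cast hIA g
        nlinarith
    have := sum_le_sum fun g (_ : g ∈ (univ : Finset G)) => key g
    rw [hquad, ← mul_sum] at this
    simp only [A, hA, h] at this
    norm_num at this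
    nlinarith
  · have key : ∀ g : G,
        (25 : ℤ) * A g ≤ 16 * ((I g : ℤ) * I g) + (-48) * (I g : ℤ) + 36 := fun g => by
      rcases Nat.eq_zero_or_pos (A g) with e | e
      · rw [e]; push_cast; nlinarith [sq_nonneg (2 * (I g : ℤ) - 3)]
      · have h1 : (4 : ℤ) ≤ I g := by have := hthree g e; omega
        have h2 : (A g : ℤ) ≤ I g := by exact_mod_cast hIA g
        nlinarith
    have := sum_le_sum fun g (_ : g ∈ (univ : Finset G)) => key g
    rw [hquad, ← mul_sum] at this
    simp only [A, hA, h] at this
    norm_num at this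
    nlinarith
  · have hp3 : p = 3 := by
      rw [h] at hps
      exact (Nat.prime_dvd_prime_iff_eq hp Nat.prime_three).1
        (hp.dvd_of_dvd_pow (show p ∣ 3 ^ 2 by norm_num; exact hps))
    have key : ∀ g : G, 0 ≤ 1 * ((I g : ℤ) * I g) + (-3) * (I g : ℤ) + 0 := fun g => by
      have hsm := hsmall g
      rw [hp3] at hsm
      have : I g = 0 ∨ 3 ≤ I g := by omega
      rcases this with e | e
      · simp [e]
      · have : (3 : ℤ) ≤ I g := by exact_mod_cast e
        nlinarith
    have := sum_nonneg fun g (_ : g ∈ (univ : Finset G)) => key g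
    rw [hquad, h] at this
    norm_num at this
    nlinarith
  · have hp11 : p = 11 := (Nat.prime_dvd_prime_iff_eq hp (by norm_num)).1 (h ▸ hps)
    have key : ∀ g : G, 0 ≤ 1 * ((I g : ℤ) * I g) + (-4) * (I g : ℤ) + 0 := fun g => by
      have hsm := hsmall g
      rw [hp11] at hsm
      have : I g = 0 ∨ 4 ≤ I g := by omega
      rcases this with e | e
      · simp [e]
      · have : (4 : ℤ) ≤ I g := by exact_mod_cast e
        nlinarith
    have := sum_nonneg fun g (_ : g ∈ (univ : Finset G)) => key g
    rw [hquad, h] at this
    norm_num at this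
    nlinarith
  · -- here `t` itself has least support
    obtain ⟨M, hM, hcardG, hI, hII, hA⟩ := exists_moments h2 t ht1
    rw [hN, hts] at hI hII hA
    rw [hN] at hcardG
    push_cast at hcardG hI hII hA
    have hh : ∀ z, t (t z) = z := fun z => by
      have := pow_orderOf_eq_one t
      rw [ht2, sq] at this
      exact Equiv.ext_iff.1 this z
    have key : ∀ g : G, 9 * ((leaveCount t g : ℤ) + leaveCount t (g⁻¹ : G)) ≤
        8 * ((meetCount t.support g : ℤ) * meetCount t.support g)
          + (-32) * (meetCount t.support g : ℤ) + 32 := by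
      intro g
      set y := (g : Perm α)⁻¹ * t * g with hy
      have hyG' : y ∈ G := G.mul_mem (G.mul_mem (G.inv_mem g.2) ht) g.2
      have hys : y.support.card = 12 := by
        rw [hy, ← hts]
        have := Perm.card_support_conj (σ := (g : Perm α)⁻¹) (τ := t)
        rwa [inv_inv] at this
      have hyy : ∀ z, y (y z) = z := fun z => by simp [hy, hh]
      have hb := meet_bound t y hh hyy hts hys
        (fun h1 => h ▸ hmin _ (G.pow_mem (G.mul_mem ht hyG') 3) h1)
        (fun h1 => h ▸ hmin _ (G.mul_mem (G.mul_mem (G.mul_mem ht hyG') (G.inv_mem ht))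
          (G.inv_mem hyG')) h1)
      have hS : (t.support ∩ y.support).card = meetCount t.support g := by
        rw [hy, support_inter_conj]; rfl
      have hPA : ((t.support ∩ y.support).filter fun z => t z ∉ y.support).card
          = leaveCount t g := by
        rw [hy, support_inter_conj, filter_filter]
        refine congrArg Finset.card (filter_congr fun z hz => ?_)
        simp [Equiv.symm_apply_eq]
      have hPB : ((t.support ∩ y.support).filter fun z => y z ∉ t.support).card
          = leaveCount t (g⁻¹ : G) := by
        refine card_bij (fun z _ => (g : Perm α) z) ?_ ?_ ?_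
        · intro z hz
          rw [hy, support_inter_conj, filter_filter, mem_filter] at hz
          refine mem_filter.2 ⟨hz.2.1, ?_⟩
          simpa using ⟨Perm.mem_support.1 hz.1, Perm.notMem_support.1 hz.2.2⟩
        · intro a _ b _ e; exact (g : Perm α).injective e
        · intro w hw
          obtain ⟨h1, h2', h3⟩ := mem_filter.1 hw
          refine ⟨(g : Perm α)⁻¹ w, ?_, by simp⟩
          rw [hy, support_inter_conj, filter_filter, mem_filter]
          refine ⟨by simpa using h2', by simpa using h1, ?_⟩
          simpa using h3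
      rw [hPA, hPB, hS] at hb
      refine hb.trans (le_of_eq ?_)
      ring
    have := sum_le_sum fun g (_ : g ∈ (univ : Finset G)) => key g
    have hB : ∑ g : G, (leaveCount t (g⁻¹ : G) : ℤ) = ∑ g : G, (leaveCount t g : ℤ) :=
      Fintype.sum_equiv (Equiv.inv G) _ _ fun g => rfl
    rw [← mul_sum, sum_add_distrib, hB, hA] at this
    simp only [sum_add_distrib, ← mul_sum, sum_const, nsmul_eq_mul, card_univ, hI, hII,
      hcardG] at this
    nlinarith

end Cfsg.Agent.ProdAction
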