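import Cfsg.Agent.ProdAction.Basic

/-!
The case `k = 2`: a cycle fixing two values, and the permutations of the square which translate
along it piecewise.
-/

set_option autoImplicit false

namespace Cfsg.Agent.ProdAction

open Equiv Equiv.Perm

/-- `v` is a `p`-cycle on the values other than `c`, `d`. -/
structure TwoData (m : ℕ) where
  p : ℕ
  hp : p.Prime
  hp2 : Odd p
  hm : Odd m
  hm5 : 5 ≤ m
  c : Fin m
  d : Fin m
  o : Fin m
  v : Perm (Fin m)
  hcd : c ≠ d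
  hfix : ∀ x, v x = x ↔ x = c ∨ x = d
  hvp : v ^ p = 1
  hvo : v o ≠ o
  gen : ∀ x, v x ≠ x → ∃ i, i < p ∧ (v ^ i) o = x

theorem pt_ext {m : ℕ} {f g : Pt m 2} (h0 : f 0 = g 0) (h1 : f 1 = g 1) : f = g := by
  funext i; fin_cases i
  · exact h0
  · exact h1

/-- Elements fixing one line in a coordinate direction, preserving the lines, are trivial. -/
def NoFibre {m k : ℕ} (G : Subgroup (Perm (Pt m k))) : Prop :=
  ∀ g ∈ G, ∀ j : Fin k, (∀ (f : Pt m k) (i : Fin k), i ≠ j → g f i = f i) →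
    (∃ f₀ : Pt m k, ∀ f : Pt m k, (∀ i, i ≠ j → f i = f₀ i) → g f = f) → g = 1

namespace TwoData

variable {m : ℕ} (D : TwoData m)

/-- The three translation amounts along a coordinate. -/
abbrev Tri := ℤ × ℤ × ℤ

/-- The amount used at the value `y`. -/
def sel (A : Tri) (y : Fin m) : ℤ := if y = D.c then A.1 else if y = D.d then A.2.1 else A.2.2

theorem sign_v : sign D.v = 1 := by
  have h : sign D.v ^ D.p = 1 := by rw [← map_pow, D.hvp, map_one]
  rwa [Int.units_pow_eq_pow_mod_two, Nat.odd_iff.1 D.hp2, pow_one] at h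

theorem v_pow_fix (a : ℤ) {x : Fin m} (hx : x = D.c ∨ x = D.d) : (D.v ^ a) x = x :=
  Equiv.Perm.zpow_apply_eq_self_of_apply_eq_self ((D.hfix x).2 hx) a

theorem v_pow_cd (a : ℤ) (x : Fin m) :
    ((D.v ^ a) x = D.c ↔ x = D.c) ∧ ((D.v ^ a) x = D.d ↔ x = D.d) := by
  refine ⟨⟨fun h => ?_, fun h => ?_⟩, ⟨fun h => ?_, fun h => ?_⟩⟩
  · exact (D.v ^ a).injective (h.trans (D.v_pow_fix a (.inl rfl)).symm)
  · rw [h]; exact D.v_pow_fix a (.inl rfl)
  · exact (D.v ^ a).injective (h.trans (D.v_pow_fix a (.inr rfl)).symm)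
  · rw [h]; exact D.v_pow_fix a (.inr rfl)

theorem sel_v (A : Tri) (a : ℤ) (y : Fin m) : D.sel A ((D.v ^ a) y) = D.sel A y := by
  simp only [sel, (D.v_pow_cd a y).1, (D.v_pow_cd a y).2]

theorem sel_add (A B : Tri) (y : Fin m) : D.sel (A + B) y = D.sel A y + D.sel B y := by
  unfold sel; split_ifs <;> rfl

theorem sel_neg (A : Tri) (y : Fin m) : D.sel (-A) y = - D.sel A y := by
  unfold sel; split_ifs <;> rfl

theorem sel_smul (r : ℤ) (A : Tri) (y : Fin m) : D.sel (r • A) y = r * D.sel A y := by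
  unfold sel; split_ifs <;> rfl

theorem sel_zero (y : Fin m) : D.sel 0 y = 0 := by
  unfold sel; split_ifs <;> rfl

/-- The piecewise translation. -/
def T (A B : Tri) : Perm (Pt m 2) where
  toFun f := ![(D.v ^ D.sel A (f 1)) (f 0), (D.v ^ D.sel B (f 0)) (f 1)]
  invFun f := ![(D.v ^ (-D.sel A (f 1))) (f 0), (D.v ^ (-D.sel B (f 0))) (f 1)]
  left_inv f := by
    apply pt_ext <;>
    · simp only [Matrix.cons_val_zero, Matrix.cons_val_one, D.sel_v]
      simp [zpow_neg]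
  right_inv f := by
    apply pt_ext <;>
    · simp only [Matrix.cons_val_zero, Matrix.cons_val_one, D.sel_v]
      simp [zpow_neg]

@[simp] theorem T_apply_zero (A B : Tri) (f : Pt m 2) :
    D.T A B f 0 = (D.v ^ D.sel A (f 1)) (f 0) := rfl

@[simp] theorem T_apply_one (A B : Tri) (f : Pt m 2) :
    D.T A B f 1 = (D.v ^ D.sel B (f 0)) (f 1) := rfl

theorem T_mul (A B A' B' : Tri) : D.T A B * D.T A' B' = D.T (A + A') (B + B') := by
  refine Equiv.ext fun f => ?_
  apply pt_ext <;> simp [Perm.mul_apply, D.sel_v, D.sel_add, zpow_add]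

theorem T_zero : D.T 0 0 = 1 := by
  refine Equiv.ext fun f => ?_
  apply pt_ext <;> simp [D.sel_zero]

theorem T_inv (A B : Tri) : (D.T A B)⁻¹ = D.T (-A) (-B) := by
  refine inv_eq_of_mul_eq_one_right ?_
  rw [T_mul, add_neg_cancel, add_neg_cancel, T_zero]

theorem zpow_eq_of_dvd {a b : ℤ} (h : (D.p : ℤ) ∣ a - b) : D.v ^ a = D.v ^ b := by
  obtain ⟨q, hq⟩ := h
  rw [show a = b + (D.p : ℤ) * q by omega, zpow_add, zpow_mul, zpow_natCast, D.hvp, one_zpow,
    mul_one]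

theorem dvd_of_fix {a : ℤ} {x : Fin m} (hx : D.v x ≠ x) (h : (D.v ^ a) x = x) :
    (D.p : ℤ) ∣ a := by
  by_contra hd
  obtain ⟨u, w, huw⟩ := (Nat.prime_iff_prime_int.1 D.hp).coprime_iff_not_dvd.2 hd
  refine hx ?_
  have h1 : D.v = (D.v ^ a) ^ w := by
    rw [← zpow_mul]
    calc D.v = D.v ^ (1 : ℤ) := (zpow_one _).symm
      _ = _ := D.zpow_eq_of_dvd ⟨u, by rw [← huw]; ring⟩
  rw [h1]
  exact Equiv.Perm.zpow_apply_eq_self_of_apply_eq_self h w

/-- The triples agreeing modulo `p`. -/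
def Cong (A B : Tri) : Prop :=
  (D.p : ℤ) ∣ A.1 - B.1 ∧ (D.p : ℤ) ∣ A.2.1 - B.2.1 ∧ (D.p : ℤ) ∣ A.2.2 - B.2.2

theorem sel_cong {A B : Tri} (h : D.Cong A B) (y : Fin m) :
    (D.p : ℤ) ∣ D.sel A y - D.sel B y := by
  unfold sel; split_ifs
  · exact h.1
  · exact h.2.1
  · exact h.2.2

theorem T_congr {A B A' B' : Tri} (hA : D.Cong A A') (hB : D.Cong B B') :
    D.T A B = D.T A' B' := by
  refine Equiv.ext fun f => ?_
  apply pt_ext <;> simp [D.zpow_eq_of_dvd (D.sel_cong hA _), D.zpow_eq_of_dvd (D.sel_cong hB _)]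

theorem coord_zero_pow (i : ℤ) : coord (0 : Fin 2) (D.v ^ i) = D.T (i, i, i) 0 := by
  refine Equiv.ext fun f => ?_
  apply pt_ext <;> simp [coord_apply, sel, -map_zpow]

theorem coord_one_pow (i : ℤ) : coord (1 : Fin 2) (D.v ^ i) = D.T 0 (i, i, i) := by
  refine Equiv.ext fun f => ?_
  apply pt_ext <;> simp [coord_apply, sel, -map_zpow]

theorem coord_zero_v : coord (0 : Fin 2) D.v = D.T (1, 1, 1) 0 := by
  simpa using D.coord_zero_pow 1

theorem coord_one_v : coord (1 : Fin 2) D.v = D.T 0 (1, 1, 1) := by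
  simpa using D.coord_one_pow 1

/-- Conjugating by a permutation of the second coordinate. -/
theorem conj_one {u : Perm (Fin m)} {r : ℤ} {A : Tri} (B : Tri) {A' : Tri}
    (hu : u * D.v * u⁻¹ = D.v ^ r) (hA : ∀ y, D.sel A (u⁻¹ y) = D.sel A' y) :
    coord (1 : Fin 2) u * D.T A B * (coord (1 : Fin 2) u)⁻¹ = D.T A' (r • B) := by
  have hpow : ∀ a : ℤ, u * D.v ^ a * u⁻¹ = D.v ^ (r * a) := fun a => by
    rw [← conj_zpow, hu, zpow_mul]
  have hsw : ∀ (a : ℤ) (x : Fin m), u ((D.v ^ a) x) = (D.v ^ (r * a)) (u x) := fun a x => by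
    rw [← hpow a]; simp
  rw [mul_inv_eq_iff_eq_mul]
  refine Equiv.ext fun f => ?_
  apply pt_ext
  · have := hA (u (f 1))
    simp only [Perm.coe_inv, Equiv.symm_apply_apply] at this
    simp [Perm.mul_apply, coord_apply, this]
  · simp only [Perm.mul_apply, coord_apply, T_apply_one, Function.update_self,
      Function.update_of_ne (show (0 : Fin 2) ≠ 1 by decide), D.sel_smul, hsw]

/-- Conjugating by a permutation of the first coordinate. -/
theorem conj_zero {u : Perm (Fin m)} {r : ℤ} (A : Tri) {B B' : Tri}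
    (hu : u * D.v * u⁻¹ = D.v ^ r) (hB : ∀ y, D.sel B (u⁻¹ y) = D.sel B' y) :
    coord (0 : Fin 2) u * D.T A B * (coord (0 : Fin 2) u)⁻¹ = D.T (r • A) B' := by
  have hpow : ∀ a : ℤ, u * D.v ^ a * u⁻¹ = D.v ^ (r * a) := fun a => by
    rw [← conj_zpow, hu, zpow_mul]
  have hsw : ∀ (a : ℤ) (x : Fin m), u ((D.v ^ a) x) = (D.v ^ (r * a)) (u x) := fun a x => by
    rw [← hpow a]; simp
  rw [mul_inv_eq_iff_eq_mul]
  refine Equiv.ext fun f => ?_
  apply pt_ext
  · simp only [Perm.mul_apply, coord_apply, T_apply_zero, Function.update_self,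
      Function.update_of_ne (show (1 : Fin 2) ≠ 0 by decide), D.sel_smul, hsw]
  · have := hB (u (f 0))
    simp only [Perm.coe_inv, Equiv.symm_apply_apply] at this
    simp [Perm.mul_apply, coord_apply, this]

theorem cong_zero_iff {A : Tri} :
    D.Cong A 0 ↔ (D.p : ℤ) ∣ A.1 ∧ (D.p : ℤ) ∣ A.2.1 ∧ (D.p : ℤ) ∣ A.2.2 := by
  simp [Cong]

variable {G : Subgroup (Perm (Pt m 2))}

/-- Vertical fibre elements are trivial. -/
theorem vert_eq_zero (hG : NoFibre G) {A B : Tri} (hA : D.Cong A 0) (hmem : D.T A B ∈ G)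
    (h : (D.p : ℤ) ∣ B.1 ∨ (D.p : ℤ) ∣ B.2.1 ∨ (D.p : ℤ) ∣ B.2.2) : D.Cong B 0 := by
  have hT : D.T A B = D.T 0 B := D.T_congr hA (by simp [Cong])
  rw [hT] at hmem
  obtain ⟨x₀, hx₀⟩ : ∃ x₀, (D.p : ℤ) ∣ D.sel B x₀ := by
    rcases h with h | h | h
    · exact ⟨D.c, by simpa [sel] using h⟩
    · exact ⟨D.d, by simpa [sel, D.hcd.symm] using h⟩
    · refine ⟨D.o, ?_⟩
      have h1 : D.o ≠ D.c := fun e => D.hvo ((D.hfix _).2 (.inl e))
      have h2 : D.o ≠ D.d := fun e => D.hvo ((D.hfix _).2 (.inr e))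
      simpa [sel, h1, h2] using h
  have h1 := hG _ hmem 1 (fun f i hi => by
    obtain rfl : i = 0 := by fin_cases i <;> simp_all
    simp [D.sel_zero]) ⟨![x₀, D.o], fun f hf => by
    have h0 : f 0 = x₀ := by simpa using hf 0 (by decide)
    apply pt_ext
    · simp [D.sel_zero]
    · simp [h0, D.zpow_eq_of_dvd (b := 0) (by simpa using hx₀)]⟩
  have key : ∀ x, (D.p : ℤ) ∣ D.sel B x := fun x => by
    refine D.dvd_of_fix D.hvo ?_
    have := congrFun (Equiv.ext_iff.1 h1 ![x, D.o]) 1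
    simpa using this
  refine D.cong_zero_iff.2 ⟨by simpa [sel] using key D.c,
    by simpa [sel, D.hcd.symm] using key D.d, ?_⟩
  have := key D.o
  have h1 : D.o ≠ D.c := fun e => D.hvo ((D.hfix _).2 (.inl e))
  have h2 : D.o ≠ D.d := fun e => D.hvo ((D.hfix _).2 (.inr e))
  simpa [sel, h1, h2] using this

/-- Horizontal fibre elements are trivial. -/
theorem horiz_eq_zero (hG : NoFibre G) {A B : Tri} (hB : D.Cong B 0) (hmem : D.T A B ∈ G)
    (h : (D.p : ℤ) ∣ A.1 ∨ (D.p : ℤ) ∣ A.2.1 ∨ (D.p : ℤ) ∣ A.2.2) : D.Cong A 0 := by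
  have hT : D.T A B = D.T A 0 := D.T_congr (by simp [Cong]) hB
  rw [hT] at hmem
  obtain ⟨x₀, hx₀⟩ : ∃ x₀, (D.p : ℤ) ∣ D.sel A x₀ := by
    rcases h with h | h | h
    · exact ⟨D.c, by simpa [sel] using h⟩
    · exact ⟨D.d, by simpa [sel, D.hcd.symm] using h⟩
    · refine ⟨D.o, ?_⟩
      have h1 : D.o ≠ D.c := fun e => D.hvo ((D.hfix _).2 (.inl e))
      have h2 : D.o ≠ D.d := fun e => D.hvo ((D.hfix _).2 (.inr e))
      simpa [sel, h1, h2] using h
  have h1 := hG _ hmem 0 (fun f i hi => by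
    obtain rfl : i = 1 := by fin_cases i <;> simp_all
    simp [D.sel_zero]) ⟨![D.o, x₀], fun f hf => by
    have h0 : f 1 = x₀ := by simpa using hf 1 (by decide)
    apply pt_ext
    · simp [h0, D.zpow_eq_of_dvd (b := 0) (by simpa using hx₀)]
    · simp [D.sel_zero]⟩
  have key : ∀ x, (D.p : ℤ) ∣ D.sel A x := fun x => by
    refine D.dvd_of_fix D.hvo ?_
    have := congrFun (Equiv.ext_iff.1 h1 ![D.o, x]) 0
    simpa using this
  refine D.cong_zero_iff.2 ⟨by simpa [sel] using key D.c,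
    by simpa [sel, D.hcd.symm] using key D.d, ?_⟩
  have := key D.o
  have h1 : D.o ≠ D.c := fun e => D.hvo ((D.hfix _).2 (.inl e))
  have h2 : D.o ≠ D.d := fun e => D.hvo ((D.hfix _).2 (.inr e))
  simpa [sel, h1, h2] using this

end TwoData

end Cfsg.Agent.ProdAction
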