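import Cfsg.Agent.ProdAction.TwoBase

/-!
The case `k = 2`: the elements normalising the group generated by the two coordinate cycles and
fixing two diagonal points lie in that group.
-/

set_option autoImplicit false
set_option maxRecDepth 4000

namespace Cfsg.Agent.ProdAction

open Equiv Equiv.Perm

namespace TwoData

variable {m : ℕ} (D : TwoData m)

theorem eq_of_two {α : Type*} {x y a b e : α} (ha : a = x ∨ a = y) (hb : b = x ∨ b = y)
    (he : e = x ∨ e = y) (h1 : b ≠ a) (h2 : e ≠ b) : e = a := by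
  rcases ha with rfl | rfl <;> rcases hb with rfl | rfl <;> rcases he with rfl | rfl <;>
    first | rfl | exact absurd rfl h1 | exact absurd rfl h2

/-- The two fixed values. -/
def CD (x : Fin m) : Prop := x = D.c ∨ x = D.d

theorem not_CD_o : ¬ D.CD D.o := fun h => D.hvo ((D.hfix _).2 h)

theorem exists_pow {x y : Fin m} (hx : ¬ D.CD x) (hy : ¬ D.CD y) :
    ∃ i : ℤ, (D.v ^ i) x = y := by
  obtain ⟨a, -, ha⟩ := D.gen x (fun h => hx ((D.hfix x).1 h))
  obtain ⟨b, -, hb⟩ := D.gen y (fun h => hy ((D.hfix y).1 h))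
  refine ⟨(b : ℤ) - a, ?_⟩
  rw [← ha, ← Perm.mul_apply, ← zpow_natCast D.v a, ← zpow_add, sub_add_cancel, zpow_natCast]
  exact hb

theorem coord_fix_iff (j : Fin 2) (f : Pt m 2) : coord j D.v f = f ↔ D.CD (f j) := by
  rw [coord_fixed]; exact D.hfix _

theorem CD_iff_of_commute {z : Perm (Pt m 2)} {j : Fin 2} (h : Commute z (coord j D.v))
    (f : Pt m 2) : D.CD (z f j) ↔ D.CD (f j) := by
  rw [← D.coord_fix_iff, ← D.coord_fix_iff, ← Perm.mul_apply, ← h.eq, Perm.mul_apply,
    z.injective.eq_iff]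

theorem exists_T {z : Perm (Pt m 2)} {n : ℕ} (hn : Odd n) (hz : z ^ n = 1)
    (h1 : Commute z (coord (0 : Fin 2) D.v)) (h2 : Commute z (coord (1 : Fin 2) D.v))
    (ha : z ![D.c, D.c] = ![D.c, D.c]) (hb : z ![D.d, D.d] = ![D.d, D.d]) :
    ∃ A B : Tri, z = D.T A B := by
  have hcom : ∀ j : Fin 2, Commute z (coord j D.v) := by
    intro j; fin_cases j
    · exact h1
    · exact h2
  have hCD : ∀ (j : Fin 2) (f : Pt m 2), D.CD (z f j) ↔ D.CD (f j) :=
    fun j f => D.CD_iff_of_commute (hcom j) f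
  obtain ⟨k, hk⟩ : ∃ k, z = (z * z) ^ k := by
    obtain ⟨l, rfl⟩ := hn
    refine ⟨l + 1, ?_⟩
    rw [← sq, ← pow_mul, show 2 * (l + 1) = 2 * l + 1 + 1 by ring, pow_succ, hz, one_mul]
  -- a set preserved by the square is preserved
  have hsq : ∀ P : Pt m 2 → Prop, (∀ f, P f → P (z (z f))) → ∀ f, P f → P (z f) := by
    intro P hP f hf
    rw [hk]
    clear hk
    induction k with
    | zero => simpa
    | succ l ih =>
      rw [pow_succ', Perm.mul_apply, Perm.mul_apply]
      exact hP _ ih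
  have hcol : ∀ j i : Fin 2, i ≠ j → ∀ f : Pt m 2, D.CD (f j) → ¬ D.CD (f i) → z f j = f j := by
    intro j i hij
    have hext : ∀ f g : Pt m 2, f j = g j → f i = g i → f = g := by
      intro f g e1 e2
      funext l
      have : ∀ a b c : Fin 2, b ≠ a → c = b ∨ c = a := by decide
      rcases this j i l hij with rfl | rfl
      · exact e2
      · exact e1
    have hrel : ∀ f g : Pt m 2, f j = g j → ¬ D.CD (f i) → ¬ D.CD (g i) →
        z f j = z g j := by
      intro f g e hf hg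
      obtain ⟨l, hl⟩ := D.exists_pow hf hg
      have hg' : g = coord i (D.v ^ l) f := hext _ _
        (by rw [coord_apply, Function.update_of_ne hij.symm, e])
        (by rw [coord_apply, Function.update_self, hl])
      have hc : Commute z (coord i (D.v ^ l)) := by
        rw [map_zpow]; exact (hcom i).zpow_right l
      rw [hg', ← Perm.mul_apply, hc.eq, Perm.mul_apply, coord_apply (f := z f),
        Function.update_of_ne hij.symm]
    have hinj : ∀ f g : Pt m 2, D.CD (f j) → ¬ D.CD (f i) → ¬ D.CD (g i) →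
        z f j = z g j → f j = g j := by
      intro f g hf hfi hgi e
      obtain ⟨l, hl⟩ := D.exists_pow ((not_congr (hCD i f)).2 hfi) ((not_congr (hCD i g)).2 hgi)
      have hg' : z g = coord i (D.v ^ l) (z f) := hext _ _
        (by rw [coord_apply, Function.update_of_ne hij.symm, e])
        (by rw [coord_apply, Function.update_self, hl])
      have hc : Commute z (coord i (D.v ^ l)) := by
        rw [map_zpow]; exact (hcom i).zpow_right l
      rw [← Perm.mul_apply (coord i (D.v ^ l)), ← hc.eq, Perm.mul_apply] at hg'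
      rw [z.injective hg', coord_apply, Function.update_of_ne hij.symm]
    intro f hf hfi
    refine hsq (fun g => g j = f j ∧ ¬ D.CD (g i)) ?_ f ⟨rfl, hfi⟩ |>.1
    rintro g ⟨hgj, hgi⟩
    have hzg : ¬ D.CD (z g i) := (not_congr (hCD i g)).2 hgi
    refine ⟨?_, (not_congr (hCD i (z g))).2 hzg⟩
    by_cases he : z g j = g j
    · rw [hrel (z g) g he hzg hgi, he, hgj]
    · have hgc : D.CD (g j) := hgj ▸ hf
      have h3 : D.CD (z g j) := (hCD j g).2 hgc
      have h4 : D.CD (z (z g) j) := (hCD j _).2 h3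
      have h5 : z (z g) j ≠ z g j := fun e =>
        he (hinj (z g) g h3 hzg hgi e)
      rw [← hgj]
      exact eq_of_two hgc h3 h4 he h5
  have hcd : ∀ f : Pt m 2, D.CD (f 0) → D.CD (f 1) → z f = f := by
    intro f h0 h1'
    have hne : ∀ g, g ≠ ![D.c, D.c] → z g ≠ ![D.c, D.c] := fun g hg e =>
      hg (z.injective (e.trans ha.symm))
    have hne' : ∀ g, g ≠ ![D.d, D.d] → z g ≠ ![D.d, D.d] := fun g hg e =>
      hg (z.injective (e.trans hb.symm))
    let P : Pt m 2 → Prop := fun g => g = ![D.c, D.d] ∨ g = ![D.d, D.c]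
    have hcorn : ∀ g : Pt m 2, D.CD (g 0) → D.CD (g 1) →
        g = ![D.c, D.c] ∨ g = ![D.d, D.d] ∨ P g := by
      rintro g (e0 | e0) (e1 | e1)
      · exact .inl (pt_ext e0 e1)
      · exact .inr (.inr (.inl (pt_ext e0 e1)))
      · exact .inr (.inr (.inr (pt_ext e0 e1)))
      · exact .inr (.inl (pt_ext e0 e1))
    have hcc : ![D.c, D.d] ≠ (![D.d, D.c] : Pt m 2) := fun e => D.hcd (congrFun e 0)
    have hP : ∀ g, P g → P (z g) := by
      intro g hg
      have hg0 : D.CD (g 0) ∧ D.CD (g 1) := by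
        rcases hg with rfl | rfl <;> simp [CD]
      rcases hcorn (z g) ((hCD 0 g).2 hg0.1) ((hCD 1 g).2 hg0.2) with e | e | e
      · exact absurd e (hne g (by
          rcases hg with rfl | rfl <;> intro e'
          · exact D.hcd (congrFun e' 1).symm
          · exact D.hcd (congrFun e' 0).symm))
      · exact absurd e (hne' g (by
          rcases hg with rfl | rfl <;> intro e'
          · exact D.hcd (congrFun e' 0)
          · exact D.hcd (congrFun e' 1)))
      · exact e
    have hsqfix : ∀ g, P g → z (z g) = g := by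
      intro g hg
      by_cases e : z g = g
      · rw [e, e]
      · have h3 := hP g hg
        have h4 := hP _ h3
        have h5 : z (z g) ≠ z g := fun e' => e (z.injective e')
        exact eq_of_two hg h3 h4 e h5
    rcases hcorn f h0 h1' with rfl | rfl | hf
    · exact ha
    · exact hb
    · exact hsq (fun g => g = f) (fun g hg => by rw [hg]; exact hsqfix f hf) f rfl
  have hmove : ∀ x : Fin m, ¬ D.CD x → ∃ i : ℤ, (D.v ^ i) D.o = x := fun x hx =>
    D.exists_pow D.not_CD_o hx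
  have hno := D.not_CD_o
  obtain ⟨α, hα⟩ := hmove _ ((not_congr (hCD 0 ![D.o, D.o])).2 hno)
  obtain ⟨β, hβ⟩ := hmove _ ((not_congr (hCD 1 ![D.o, D.o])).2 hno)
  obtain ⟨rc, hrc⟩ := hmove _ ((not_congr (hCD 0 ![D.o, D.c])).2 hno)
  obtain ⟨rd, hrd⟩ := hmove _ ((not_congr (hCD 0 ![D.o, D.d])).2 hno)
  obtain ⟨kc, hkc⟩ := hmove _ ((not_congr (hCD 1 ![D.c, D.o])).2 hno)
  obtain ⟨kd, hkd⟩ := hmove _ ((not_congr (hCD 1 ![D.d, D.o])).2 hno)
  refine ⟨(rc, rd, α), (kc, kd, β), ?_⟩
  -- agreement on the base points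
  have hT : ∀ f : Pt m 2, f 0 = D.o ∨ D.CD (f 0) → f 1 = D.o ∨ D.CD (f 1) →
      z f = D.T (rc, rd, α) (kc, kd, β) f := by
    have ho1 : D.o ≠ D.c := fun e => hno (.inl e)
    have ho2 : D.o ≠ D.d := fun e => hno (.inr e)
    intro f h0 h1'
    rcases h0 with e0 | e0 <;> rcases h1' with e1 | e1
    · rw [show f = ![D.o, D.o] from pt_ext e0 e1]
      apply pt_ext <;> simp [sel, ho1, ho2, hα, hβ]
    · rcases e1 with e1 | e1
      · rw [show f = ![D.o, D.c] from pt_ext e0 e1]
        apply pt_ext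
        · simp [sel, hrc]
        · rw [hcol 1 0 (by decide) _ (.inl rfl) hno]
          simp [D.v_pow_fix _ (.inl rfl)]
      · rw [show f = ![D.o, D.d] from pt_ext e0 e1]
        apply pt_ext
        · simp [sel, hrd, D.hcd.symm]
        · rw [hcol 1 0 (by decide) _ (.inr rfl) hno]
          simp [D.v_pow_fix _ (.inr rfl)]
    · rcases e0 with e0 | e0
      · rw [show f = ![D.c, D.o] from pt_ext e0 e1]
        apply pt_ext
        · rw [hcol 0 1 (by decide) _ (.inl rfl) hno]
          simp [D.v_pow_fix _ (.inl rfl)]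
        · simp [sel, hkc]
      · rw [show f = ![D.d, D.o] from pt_ext e0 e1]
        apply pt_ext
        · rw [hcol 0 1 (by decide) _ (.inr rfl) hno]
          simp [D.v_pow_fix _ (.inr rfl)]
        · simp [sel, hkd, D.hcd.symm]
    · rw [hcd f e0 e1]
      apply pt_ext <;> simp [D.v_pow_fix _ e0, D.v_pow_fix _ e1]
  refine Equiv.ext fun f => ?_
  obtain ⟨i, hi⟩ : ∃ i : ℤ, (D.v ^ i) (f 0) = D.o ∨ D.CD (f 0) := by
    by_cases h : D.CD (f 0)
    · exact ⟨0, .inr h⟩
    · obtain ⟨i, hi⟩ := D.exists_pow h hno; exact ⟨i, .inl hi⟩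
  obtain ⟨l, hl⟩ : ∃ l : ℤ, (D.v ^ l) (f 1) = D.o ∨ D.CD (f 1) := by
    by_cases h : D.CD (f 1)
    · exact ⟨0, .inr h⟩
    · obtain ⟨i, hi⟩ := D.exists_pow h hno; exact ⟨i, .inl hi⟩
  set S := D.T (i, i, i) (l, l, l) with hS
  have hSz : z * S = S * z := by
    have e : S = coord (0 : Fin 2) D.v ^ i * coord (1 : Fin 2) D.v ^ l := by
      rw [← map_zpow, ← map_zpow, D.coord_zero_pow, D.coord_one_pow, D.T_mul, add_zero, zero_add]
    rw [e]
    exact ((h1.zpow_right i).mul_right (h2.zpow_right l)).eq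
  have hS0 : S f 0 = (D.v ^ i) (f 0) := by simp [hS, sel]
  have hS1 : S f 1 = (D.v ^ l) (f 1) := by simp [hS, sel]
  have := hT (S f)
    (hi.imp (fun h => hS0.trans h) fun h => by rw [hS0, D.v_pow_fix i h]; exact h)
    (hl.imp (fun h => hS1.trans h) fun h => by rw [hS1, D.v_pow_fix l h]; exact h)
  rw [← Perm.mul_apply, hSz, ← Perm.mul_apply, hS, D.T_mul, add_comm (rc, rd, α),
    add_comm (kc, kd, β), ← D.T_mul, Perm.mul_apply, Perm.mul_apply] at this
  exact (D.T (i, i, i) (l, l, l)).injective this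

variable {G : Subgroup (Perm (Pt m 2))}

/-- No piecewise translation with trivial `c`-parts lies in the group. -/
def Kill (G : Subgroup (Perm (Pt m 2))) : Prop :=
  ∀ A B : Tri, D.T A B ∈ G → (D.p : ℤ) ∣ A.1 → (D.p : ℤ) ∣ B.1 → D.Cong A 0 ∧ D.Cong B 0

/-- A multiplier different from `1` kills them. -/
theorem kill_of_mult (hG : NoFibre G) {u : Perm (Fin m)} {r : ℤ} (hu : u * D.v * u⁻¹ = D.v ^ r)
    (huc : u D.c = D.c) (hud : u D.d = D.d) (hur : ¬ (D.p : ℤ) ∣ r - 1)
    (humem : coord (1 : Fin 2) u ∈ G) : D.Kill G := by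
  intro A B hT hA1 hB1
  have hsel : ∀ y, D.sel A (u⁻¹ y) = D.sel A y := by
    intro y
    have e1 : u⁻¹ y = D.c ↔ y = D.c := by
      rw [Perm.coe_inv, Equiv.symm_apply_eq, huc]
    have e2 : u⁻¹ y = D.d ↔ y = D.d := by
      rw [Perm.coe_inv, Equiv.symm_apply_eq, hud]
    simp only [sel, e1, e2]
  have h1 : D.T 0 (r • B - B) ∈ G := by
    have h := mul_mem (mul_mem (mul_mem humem hT) (inv_mem humem)) (inv_mem hT)
    rwa [D.conj_one B hu hsel, D.T_inv, D.T_mul, add_neg_cancel, ← sub_eq_add_neg] at h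
  have hp := Nat.prime_iff_prime_int.1 D.hp
  have h2 := D.vert_eq_zero hG (A := 0) (by simp [Cong]) h1 (.inl (by
    simpa [sub_eq_add_neg] using dvd_sub (hB1.mul_left r) hB1))
  rw [D.cong_zero_iff] at h2
  have hB : D.Cong B 0 := by
    refine D.cong_zero_iff.2 ⟨hB1, ?_, ?_⟩
    · exact (hp.dvd_or_dvd (show (D.p : ℤ) ∣ (r - 1) * B.2.1 by
        simpa [sub_mul] using h2.2.1)).resolve_left hur
    · exact (hp.dvd_or_dvd (show (D.p : ℤ) ∣ (r - 1) * B.2.2 by
        simpa [sub_mul] using h2.2.2)).resolve_left hur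
  exact ⟨D.horiz_eq_zero hG hB hT (.inl hA1), hB⟩

/-- Elements of the two point stabiliser normalising the translations are translations. -/
theorem eq_trans_of_kill (hk : D.Kill G) (h0 : coord (0 : Fin 2) D.v ∈ G)
    (h1 : coord (1 : Fin 2) D.v ∈ G) {A B : Tri} (hT : D.T A B ∈ G) :
    ∃ i j : ℤ, D.T A B = D.T (i, i, i) (j, j, j) := by
  refine ⟨A.1, B.1, ?_⟩
  have hm : ∀ i j : ℤ, D.T (i, i, i) (j, j, j) ∈ G := fun i j => by
    have := mul_mem (zpow_mem h0 i) (zpow_mem h1 j)
    rwa [← map_zpow, ← map_zpow, D.coord_zero_pow, D.coord_one_pow, D.T_mul, add_zero,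
      zero_add] at this
  have h2 : D.T (A - (A.1, A.1, A.1)) (B - (B.1, B.1, B.1)) ∈ G := by
    have := mul_mem hT (inv_mem (hm A.1 B.1))
    rwa [D.T_inv, D.T_mul, ← sub_eq_add_neg, ← sub_eq_add_neg] at this
  obtain ⟨hA, hB⟩ := hk _ _ h2 (by simp) (by simp)
  refine D.T_congr ?_ ?_
  · simpa [Cong] using hA
  · simpa [Cong] using hB

end TwoData

end Cfsg.Agent.ProdAction
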